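import Cfsg.Agent.Lib.MinDegChev.TriD4Field
import Cfsg.Agent.Lib.Chev.TwistOrder
import Cfsg.Agent.Lib.Chev.TwistBN
import Cfsg.Agent.Lib.Chev.FieldAut
import Cfsg.Agent.Lib.BN.Basic

/-!
Coordinates of the Heisenberg parabolic of `³D₄(q)`.
-/

set_option autoImplicit false
set_option maxRecDepth 4000

namespace Cfsg.Agent.Lib.MinDegChev

open Cfsg.Lie Cfsg.Agent.Lib Cfsg.Agent.Lib.Chev

local notation "X" => Cfsg.Agent.Lib.Chev.Checked.xg D4.checked
local notation "H" => Cfsg.Agent.Lib.Chev.Checked.hg D4.checked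
local notation "N₀" => Cfsg.Agent.Lib.Chev.Checked.ng D4.checked

variable {K : Type*} [Field K]

/-- entrywise action of a field automorphism -/
noncomputable abbrev Gam (φ : K ≃+* K) : GL chevD4.Idx K →* GL chevD4.Idx K := gmap chevD4 φ.toRingHom

/-- a line of the radical through a root element -/
def lineV (φ : K ≃+* K) (v k : K) : V4 K := TU φ (-v) (k, 0, 0, 0)

theorem lineV_eq (φ : K ≃+* K) (v k : K) :
    lineV φ v k = (k, -(v * k), φ v * φ (φ v) * k, -(nm3 φ v * k)) := by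
  simp only [lineV, TU, tr3, nm3, map_zero, map_neg, map_mul]
  ext <;> dsimp only <;> ring

/-- the symplectic form on the radical -/
def sForm (φ : K ≃+* K) (f g : V4 K) : K :=
  f.1 * g.2.2.2 - g.1 * f.2.2.2 - tr3 φ (f.2.1 * g.2.2.1) + tr3 φ (g.2.1 * f.2.2.1)

theorem cong_trans {g h k : GL chevD4.Idx K} (a : Cong g h) (b : Cong h k) : Cong g k := by
  obtain ⟨c, rfl⟩ := a
  obtain ⟨d, rfl⟩ := b
  exact ⟨d + c, by rw [mul_assoc, D4.checked.xg_add (by norm_num [n24])]⟩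

theorem cong_symm {g h : GL chevD4.Idx K} (a : Cong g h) : Cong h g := by
  obtain ⟨c, rfl⟩ := a
  exact ⟨-c, by rw [mul_assoc, D4.checked.xg_add (by norm_num [n24]), add_neg_cancel, D4.checked.xg_zero, mul_one]⟩

theorem top_comm {g : GL chevD4.Idx K} (h : g ∈ C23 K) (c : K) : Commute (X 23 c) g :=
  Subgroup.mem_centralizer_iff.1 h _ ⟨c, rfl⟩

theorem conj_of_comm {g x : GL chevD4.Idx K} (h : Commute g x) : g * x * g⁻¹ = x := by
  rw [h.eq, mul_inv_cancel_right]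

theorem cong_conj_C23 {g x y : GL chevD4.Idx K} (hg : g ∈ C23 K) (h : Cong x y) :
    Cong (g * x * g⁻¹) (g * y * g⁻¹) := by
  obtain ⟨c, rfl⟩ := h
  refine ⟨c, ?_⟩
  rw [mul_assoc g, mul_assoc y, (top_comm (inv_mem hg) c).eq]
  group

theorem xV_zero (φ : K ≃+* K) : xV φ (0 : V4 K) = 1 :=
  (show xV φ (0, 0, 0, 0) = X 22 (0 : K) from (xV_single22 φ 0).symm).trans (D4.checked.xg_zero 22)

theorem comm_hi {r r' : ℕ} (hr : r ∈ [17, 20, 21, 22]) (hr' : r' ∈ [17, 20, 21, 22]) (a b : K) :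
    Commute (X r a) (X r' b) := by
  simp only [List.mem_cons, List.not_mem_nil, or_false] at hr hr'
  rcases hr with rfl | rfl | rfl | rfl <;> rcases hr' with rfl | rfl | rfl | rfl
  all_goals first
    | exact xg_comm (by norm_num) (by norm_num) (Or.inl (beq_self_eq_true _)) a b
    | (refine comm_pair _ _ ?_ (by norm_num) (by norm_num) a b; simp; done)
    | (refine (comm_pair _ _ ?_ (by norm_num) (by norm_num) b a).symm; simp; done)

theorem comm_hi_bG (φ : K ≃+* K) {r : ℕ} (hr : r ∈ [17, 20, 21, 22]) (a t : K) :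
    Commute (X r a) (bG φ t) :=
  ((comm_hi hr (by simp) a _).mul_right (comm_hi hr (by simp) a _)).mul_right (comm_hi hr (by simp) a _)

theorem bG_add (φ : K ≃+* K) (a b : K) : bG φ a * bG φ b = bG φ (a + b) := by
  rw [← nG_aG, ← nG_aG, ← nG_aG, ← aG_add]; group

theorem bG_inv (φ : K ≃+* K) (a : K) : (bG φ a)⁻¹ = bG φ (-a) :=
  inv_eq_of_mul_eq_one_right (by rw [bG_add, add_neg_cancel, bG_zero])

theorem bG_comm (φ : K ≃+* K) (a b : K) : Commute (bG φ a) (bG φ b) := by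
  show _ = _
  rw [bG_add, bG_add, add_comm]

theorem ng1_aG (φ : K ≃+* K) (t : K) : N₀ 1 * aG φ t * (N₀ 1)⁻¹ = uG φ (-t) := by
  rw [aG, conj_mul3,
    ng_rel (s' := 18) (e := true) (by norm_num) (by norm_num) (by decide +kernel),
    ng_rel (s' := 13) (e := false) (by norm_num) (by norm_num) (by decide +kernel),
    ng_rel (s' := 12) (e := false) (by norm_num) (by norm_num) (by decide +kernel)]
  simp [uG, sgn]

theorem uG_add (φ : K ≃+* K) (a b : K) : uG φ a * uG φ b = uG φ (a + b) := by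
  have h : ∀ t, uG φ t = N₀ 1 * aG φ (-t) * (N₀ 1)⁻¹ := fun t => by rw [ng1_aG, neg_neg]
  rw [h, h, h, neg_add, ← aG_add]; group

theorem uG_zero (φ : K ≃+* K) : uG φ (0 : K) = 1 := by
  simp only [uG, map_zero, D4.checked.xg_zero, mul_one]

theorem uG_inv (φ : K ≃+* K) (a : K) : (uG φ a)⁻¹ = uG φ (-a) :=
  inv_eq_of_mul_eq_one_right (by rw [uG_add, add_neg_cancel, uG_zero])

theorem X22_comm_uG (φ : K ≃+* K) (v a : K) : Commute (uG φ v) (X 22 a) :=
  ((comm_pair 18 22 (by simp) (by norm_num) (by norm_num) v a).mul_left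
    (comm_pair 13 22 (by simp) (by norm_num) (by norm_num) _ a)).mul_left
    (comm_pair 12 22 (by simp) (by norm_num) (by norm_num) _ a)

/-- two elements of the radical commute up to the symplectic form -/
theorem xV_comm (φ : K ≃+* K) (f g : V4 K) :
    xV φ f * xV φ g = xV φ g * xV φ f * X 23 (sForm φ f g) := by
  obtain ⟨s, t, t', s'⟩ := f
  obtain ⟨u, w, w', u'⟩ := g
  obtain ⟨A₁, hA₁⟩ : ∃ A : GL chevD4.Idx K, A = X 14 s * aG φ t := ⟨_, rfl⟩
  obtain ⟨A₂, hA₂⟩ : ∃ A : GL chevD4.Idx K, A = X 14 u * aG φ w := ⟨_, rfl⟩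
  obtain ⟨B₁, hB₁⟩ : ∃ A : GL chevD4.Idx K, A = bG φ t' * X 22 s' := ⟨_, rfl⟩
  obtain ⟨B₂, hB₂⟩ : ∃ A : GL chevD4.Idx K, A = bG φ w' * X 22 u' := ⟨_, rfl⟩
  have e1 : xV φ (s, t, t', s') = A₁ * B₁ := by simp only [xV, hA₁, hB₁, mul_assoc]
  have e2 : xV φ (u, w, w', u') = A₂ * B₂ := by simp only [xV, hA₂, hB₂, mul_assoc]
  have hA : Commute A₁ A₂ := by
    have h14 : Commute (X 14 s) (X 14 u : GL chevD4.Idx K) :=
      xg_comm (by norm_num) (by norm_num) (Or.inl (by simp)) s u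
    rw [hA₁, hA₂]
    refine ((h14.mul_right (bot_comm_aG φ s w)).mul_left ((bot_comm_aG φ u t).symm.mul_right ?_))
    show _ = _
    rw [aG_add, aG_add, add_comm]
  have hB : Commute B₁ B₂ := by
    rw [hB₁, hB₂]
    exact (((bG_comm φ t' w').mul_right (comm_hi_bG φ (by simp) u' t').symm)).mul_left
      ((comm_hi_bG φ (by simp) s' w').mul_right (comm_hi (by simp) (by simp) s' u'))
  have key : ∀ (x y a b : K), X 14 x * aG φ y * (bG φ a * X 22 b) =
      bG φ a * X 22 b * (X 14 x * aG φ y) * X 23 (x * b - tr3 φ (y * a)) := by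
    intro x y a b
    have h := yB_conj φ 0 x y b a
    simp only [D4.checked.xg_zero, one_mul, zero_add] at h
    have hc : Commute (X 22 b) (bG φ a) := comm_hi_bG φ (by simp) b a
    have hz : Commute (X 23 (x * b - tr3 φ (y * a))) (X 14 x * aG φ y) :=
      (top_comm_bot _ x).mul_right (top_comm_aG φ _ y)
    rw [hc.symm.eq, mul_assoc (X 22 b * bG φ a), ← hz.eq, ← mul_assoc (X 23 _), ← h]
    group
  have hzC : ∀ (d x y : K), Commute (X 23 d) (X 14 x * aG φ y) := fun d x y =>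
    (top_comm_bot d x).mul_right (top_comm_aG φ d y)
  have hzB : ∀ (d a b : K), Commute (X 23 d) (bG φ a * X 22 b) := fun d a b => by
    have := top_comm (xV_mem φ (0, 0, a, b)) d
    simpa [xV, aG_zero, D4.checked.xg_zero] using this
  have m1 : B₁ * A₂ = A₂ * B₁ * X 23 (-(u * s' - tr3 φ (w * t'))) := by
    rw [hA₂, hB₁, key u w t' s', mul_assoc _ (X 23 _) (X 23 _), D4.checked.xg_add (by norm_num [n24]),
      add_neg_cancel, D4.checked.xg_zero, mul_one]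
  have m2 : B₂ * A₁ = A₁ * B₂ * X 23 (-(s * u' - tr3 φ (t * w'))) := by
    rw [hA₁, hB₂, key s t w' u', mul_assoc _ (X 23 _) (X 23 _), D4.checked.xg_add (by norm_num [n24]),
      add_neg_cancel, D4.checked.xg_zero, mul_one]
  have z1 : ∀ d, Commute (X 23 d) B₁ := fun d => hB₁ ▸ hzB d t' s'
  have z2 : ∀ d, Commute (X 23 d) B₂ := fun d => hB₂ ▸ hzB d w' u'
  rw [e1, e2]
  calc A₁ * B₁ * (A₂ * B₂) = A₁ * (B₁ * A₂) * B₂ := by group
    _ = A₁ * A₂ * (B₁ * (X 23 (-(u * s' - tr3 φ (w * t'))) * B₂)) := by rw [m1]; group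
    _ = A₁ * A₂ * (B₁ * B₂) * X 23 (-(u * s' - tr3 φ (w * t'))) := by rw [(z2 _).eq]; group
    _ = A₂ * (A₁ * B₂) * B₁ * X 23 (-(u * s' - tr3 φ (w * t'))) := by rw [hA.eq, hB.eq]; group
    _ = A₂ * (B₂ * A₁ * X 23 (s * u' - tr3 φ (t * w'))) * B₁ *
          X 23 (-(u * s' - tr3 φ (w * t'))) := by
        rw [m2, mul_assoc (A₁ * B₂), D4.checked.xg_add (by norm_num [n24]), neg_add_cancel,
          D4.checked.xg_zero, mul_one]
    _ = A₂ * B₂ * (A₁ * (X 23 (s * u' - tr3 φ (t * w')) * B₁)) *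
          X 23 (-(u * s' - tr3 φ (w * t'))) := by group
    _ = A₂ * B₂ * (A₁ * B₁) *
          (X 23 (s * u' - tr3 φ (t * w')) * X 23 (-(u * s' - tr3 φ (w * t')))) := by
        rw [(z1 _).eq]; group
    _ = _ := by
        rw [D4.checked.xg_add (by norm_num [n24])]
        congr 2
        simp only [sForm]; ring

theorem rad_conj (φ : K ≃+* K) (f g : V4 K) : Cong (xV φ f * xV φ g * (xV φ f)⁻¹) (xV φ g) :=
  ⟨sForm φ f g, by rw [xV_comm, mul_assoc (xV φ g * xV φ f), (top_comm (inv_mem (xV_mem φ f)) _).eq]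
                   group⟩

theorem gmap_uG (φ : K ≃+* K) (v : K) : Gam φ (uG φ v) = uG φ (φ v) := by
  simp only [uG, map_mul, D4.checked.gmap_xg _ (show 18 < chevD4.nroots by norm_num [n24]),
    D4.checked.gmap_xg _ (show 13 < chevD4.nroots by norm_num [n24]),
    D4.checked.gmap_xg _ (show 12 < chevD4.nroots by norm_num [n24])]
  rfl

theorem gmap_aG (φ : K ≃+* K) (v : K) : Gam φ (aG φ v) = aG φ (φ v) := by
  simp only [aG, map_mul, D4.checked.gmap_xg _ (show 19 < chevD4.nroots by norm_num [n24]),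
    D4.checked.gmap_xg _ (show 16 < chevD4.nroots by norm_num [n24]),
    D4.checked.gmap_xg _ (show 15 < chevD4.nroots by norm_num [n24])]
  simp

theorem gmap_bG (φ : K ≃+* K) (v : K) : Gam φ (bG φ v) = bG φ (φ v) := by
  simp only [bG, map_mul, D4.checked.gmap_xg _ (show 17 < chevD4.nroots by norm_num [n24]),
    D4.checked.gmap_xg _ (show 20 < chevD4.nroots by norm_num [n24]),
    D4.checked.gmap_xg _ (show 21 < chevD4.nroots by norm_num [n24])]
  simp

theorem gmap_X (φ : K ≃+* K) {r : ℕ} (hr : r < 24) (c : K) : Gam φ (X r c) = X r (φ c) :=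
  D4.checked.gmap_xg _ (by simpa [n24] using hr) c

theorem gmap_nG (φ : K ≃+* K) : Gam φ (nG : GL chevD4.Idx K) = nG := by
  simp only [nG, map_mul, D4.checked.gmap_ng _ (show 0 < chevD4.rank by norm_num [rk4]),
    D4.checked.gmap_ng _ (show 2 < chevD4.rank by norm_num [rk4]),
    D4.checked.gmap_ng _ (show 3 < chevD4.rank by norm_num [rk4])]

theorem gmap_ng1 (φ : K ≃+* K) : Gam φ (N₀ 1 : GL chevD4.Idx K) = N₀ 1 :=
  D4.checked.gmap_ng _ (by norm_num [rk4])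

theorem gmap_H (φ : K ≃+* K) {r : ℕ} (hr : r < 24) (c : K) : Gam φ (H r c) = H r (φ c) := by
  have hr' : r < chevD4.nroots := by simpa [n24] using hr
  show gmap chevD4 φ.toRingHom (D4.checked.wg (chevD4.hWord r c)) =
    D4.checked.wg (chevD4.hWord r (φ c))
  rw [D4.checked.gmap_wg]
  · congr 1
    simp [ChevalleyDatum.hWord, ChevalleyDatum.nWord]
  · intro p hp
    rw [ChevalleyDatum.hWord] at hp
    rcases List.mem_append.1 hp with hp | hp
    exacts [D4.checked.nWord_lt hr' _ p hp, D4.checked.nWord_lt hr' _ p hp]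

theorem gmap_hG (φ : K ≃+* K) (v : K) : Gam φ (hG φ v) = hG φ (φ v) := by
  simp only [hG, map_mul, gmap_H φ (show 18 < 24 by norm_num), gmap_H φ (show 13 < 24 by norm_num),
    gmap_H φ (show 12 < 24 by norm_num)]

theorem gmap_xV (φ : K ≃+* K) (f : V4 K) :
    Gam φ (xV φ f) = xV φ (φ f.1, φ f.2.1, φ f.2.2.1, φ f.2.2.2) := by
  simp only [xV, map_mul, gmap_X φ (show 14 < 24 by norm_num), gmap_X φ (show 22 < 24 by norm_num),
    gmap_aG, gmap_bG]

/-- the element with given coordinates in the Borel subgroup -/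
noncomputable def bC (φ : K ≃+* K) (v : K) (f : V4 K) (c a b : K) : GL chevD4.Idx K :=
  uG φ v * xV φ f * X 23 c * (hG φ a * H 14 b)

theorem pair14_22 : pair chevD4 14 22 = -1 ∧ pair chevD4 14 14 = 2 := by decide +kernel

theorem tor14 (φ : K ≃+* K) {a b : K} (ha : a ≠ 0) (hb : b ≠ 0) (hc : φ b = b) (s : K) :
    hG φ a * H 14 b * X 14 s * (hG φ a * H 14 b)⁻¹ = X 14 ((nm3 φ a)⁻¹ * (b * b * s)) := by
  rw [show ∀ g h x : GL chevD4.Idx K, g * h * x * (g * h)⁻¹ = g * (h * x * h⁻¹) * g⁻¹ from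
    fun g h x => by group, D4.checked.hg_xg (by norm_num [n24]) (by norm_num [n24]) hb, pair14_22.2,
    hG_xg φ ha (by norm_num), pair_vals.2.2.2.1.1, pair_vals.2.2.2.1.2.1, pair_vals.2.2.2.1.2.2]
  congr 1
  simp only [nm3, zpow_neg, zpow_one, zpow_two, mul_inv_rev]
  ring

theorem tor22 (φ : K ≃+* K) {a b : K} (ha : a ≠ 0) (hb : b ≠ 0) (s : K) :
    hG φ a * H 14 b * X 22 s * (hG φ a * H 14 b)⁻¹ = X 22 (nm3 φ a * (b⁻¹ * s)) := by
  obtain ⟨-, -, -, -, -, -, -, -, -, -, p, -⟩ := pair_vals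
  rw [show ∀ g h x : GL chevD4.Idx K, g * h * x * (g * h)⁻¹ = g * (h * x * h⁻¹) * g⁻¹ from
    fun g h x => by group, D4.checked.hg_xg (by norm_num [n24]) (by norm_num [n24]) hb, pair14_22.1,
    hG_xg φ ha (by norm_num), p.1, p.2.1, p.2.2]
  congr 1
  simp only [nm3, zpow_one, zpow_neg, mul_assoc]

theorem tor_top (φ : K ≃+* K) {a b : K} (ha : a ≠ 0) (hb : b ≠ 0) (c : K) :
    hG φ a * H 14 b * X 23 c * (hG φ a * H 14 b)⁻¹ = X 23 (b * c) := by
  rw [show ∀ g h x : GL chevD4.Idx K, g * h * x * (g * h)⁻¹ = g * (h * x * h⁻¹) * g⁻¹ from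
    fun g h x => by group, D4.checked.hg_xg (by norm_num [n24]) (by norm_num [n24]) hb,
    pair_vals.1.2.2.2.2, zpow_one, hG_top φ ha]

theorem tor_aG (φ : K ≃+* K) (h3 : ∀ t, φ (φ (φ t)) = t) {a b : K} (ha : a ≠ 0) (hb : b ≠ 0)
    (hc : φ b = b) (t : K) :
    hG φ a * H 14 b * aG φ t * (hG φ a * H 14 b)⁻¹ = aG φ (a * (φ a * φ (φ a))⁻¹ * (b * t)) := by
  have h := h14_conj φ hb hc 0 0 t
  simp only [mul_zero, D4.checked.xg_zero, one_mul] at h
  rw [show ∀ g h x : GL chevD4.Idx K, g * h * x * (g * h)⁻¹ = g * (h * x * h⁻¹) * g⁻¹ from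
    fun g h x => by group, h, xV_single19 φ, hG_conj φ h3 ha]
  simp [xV, aG_zero, bG_zero, D4.checked.xg_zero]

theorem bC_rad_C23 (φ : K ≃+* K) (v : K) (f : V4 K) (c : K) :
    uG φ v * xV φ f * X 23 c ∈ C23 K :=
  mul_mem (mul_mem (uG_mem φ v) (xV_mem φ f)) (mem_C23 K (by simp) (by norm_num) c)

theorem bC_top (φ : K ≃+* K) (v : K) (f : V4 K) (c : K) {a b : K} (ha : a ≠ 0) (hb : b ≠ 0) (d : K) :
    bC φ v f c a b * X 23 d * (bC φ v f c a b)⁻¹ = X 23 (b * d) := by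
  rw [bC, show ∀ g h x : GL chevD4.Idx K, g * h * x * (g * h)⁻¹ = g * (h * x * h⁻¹) * g⁻¹ from
    fun g h x => by group, tor_top φ ha hb, conj_of_comm (top_comm (bC_rad_C23 φ v f c) _).symm]

theorem rad_top_conj (φ : K ≃+* K) (f g : V4 K) (c : K) :
    Cong (xV φ f * X 23 c * xV φ g * (xV φ f * X 23 c)⁻¹) (xV φ g) := by
  rw [show ∀ p z x : GL chevD4.Idx K, p * z * x * (p * z)⁻¹ = p * (z * x * z⁻¹) * p⁻¹ from
    fun p z x => by group, conj_of_comm (top_comm (xV_mem φ g) c)]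
  exact rad_conj φ f g

theorem uG_line (φ : K ≃+* K) (h3 : ∀ t, φ (φ (φ t)) = t) (v : K) {k : K} (hk : φ k = k) :
    Cong (uG φ v * X 14 k * (uG φ v)⁻¹) (xV φ (lineV φ v k)) := by
  have h := uG_conj φ h3 (-v) (k, 0, 0, 0) hk
  rw [← uG_inv, inv_inv] at h
  rw [xV_single14 φ]
  exact h

theorem bC14 (φ : K ≃+* K) (h3 : ∀ t, φ (φ (φ t)) = t) (v : K) (f : V4 K) (c : K) {a b : K}
    (ha : a ≠ 0) (hb : b ≠ 0) (hc : φ b = b) (hn : φ (nm3 φ a) = nm3 φ a) :
    Cong (bC φ v f c a b * X 14 1 * (bC φ v f c a b)⁻¹)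
      (xV φ (lineV φ v ((nm3 φ a)⁻¹ * (b * b)))) := by
  have e : bC φ v f c a b * X 14 1 * (bC φ v f c a b)⁻¹ =
      uG φ v * (xV φ f * X 23 c * (hG φ a * H 14 b * X 14 1 * (hG φ a * H 14 b)⁻¹) *
        (xV φ f * X 23 c)⁻¹) * (uG φ v)⁻¹ := by rw [bC]; group
  rw [e, tor14 φ ha hb hc, mul_one, xV_single14 φ]
  refine cong_trans (cong_conj_C23 (uG_mem φ v) (rad_top_conj φ f _ c)) ?_
  rw [← xV_single14 φ]
  exact uG_line φ h3 v (by simp [hn, hc])

theorem bC22 (φ : K ≃+* K) (v : K) (f : V4 K) (c : K) {a b : K}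
    (ha : a ≠ 0) (hb : b ≠ 0) :
    Cong (bC φ v f c a b * X 22 1 * (bC φ v f c a b)⁻¹) (X 22 (nm3 φ a * b⁻¹)) := by
  have e : bC φ v f c a b * X 22 1 * (bC φ v f c a b)⁻¹ =
      uG φ v * (xV φ f * X 23 c * (hG φ a * H 14 b * X 22 1 * (hG φ a * H 14 b)⁻¹) *
        (xV φ f * X 23 c)⁻¹) * (uG φ v)⁻¹ := by rw [bC]; group
  rw [e, tor22 φ ha hb, mul_one, xV_single22 φ]
  refine cong_trans (cong_conj_C23 (uG_mem φ v) (rad_top_conj φ f _ c)) ?_
  rw [← xV_single22 φ, conj_of_comm (X22_comm_uG φ v _)]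
  exact ⟨0, by rw [D4.checked.xg_zero, mul_one]⟩

theorem nG_pull (φ : K ≃+* K) (f : V4 K) :
    Cong ((nG : GL chevD4.Idx K)⁻¹ * xV φ f * nG) (xV φ (-f.2.2.2, f.2.2.1, -f.2.1, f.1)) := by
  obtain ⟨c, hc⟩ := nG_conj φ (-f.2.2.2, f.2.2.1, -f.2.1, f.1)
  simp only [neg_neg] at hc
  refine ⟨-c, ?_⟩
  have h2 : xV φ f = nG * xV φ (-f.2.2.2, f.2.2.1, -f.2.1, f.1) * nG⁻¹ * X 23 (-c) := by
    rw [hc, mul_assoc, D4.checked.xg_add (by norm_num [n24]), add_neg_cancel, D4.checked.xg_zero, mul_one]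
  have hz : (nG : GL chevD4.Idx K)⁻¹ * X 23 (-c) * nG = X 23 (-c) := by
    conv_lhs => rw [← nG_top (-c)]
    group
  rw [h2]
  calc _ = xV φ (-f.2.2.2, f.2.2.1, -f.2.1, f.1) * ((nG : GL chevD4.Idx K)⁻¹ * X 23 (-c) * nG) := by group
    _ = _ := by rw [hz]

/-- The stabiliser of the highest root group. -/
noncomputable def topStab (q : ℕ) (φ : K ≃+* K) : Subgroup (GL chevD4.Idx K) :=
  let Z : Subgroup (GL chevD4.Idx K) :=
    Subgroup.closure {x | ∃ c, φ c = c ∧ x = X 23 c}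
  twistedD4 K q ⊓ Subgroup.normalizer (Z : Set (GL chevD4.Idx K))

section Fixed

variable {q : ℕ} [Fintype K] (φ : K ≃+* K) (hφ : ∀ t, φ t = t ^ q) (hK : Fintype.card K = q ^ 3)
  (hq : 2 ≤ q)
include hφ hK

theorem xg_mem_fixed {r : ℕ} (hr : r ∈ [14, 22, 23]) {c : K} (h : X r c ∈ twistedD4 K q) : φ c = c := by
  rw [D4.eq_fixed φ hφ hK] at h
  have hf := h.2
  simp only [List.mem_cons, List.not_mem_nil, or_false] at hr
  rcases hr with rfl | rfl | rfl
  · rw [act_xg φ (by norm_num) sym_vals.1] at hf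
    simpa [sgn] using D4.checked.xg_inj (by norm_num [n24]) hf
  · rw [act_xg φ (by norm_num) sym_vals.2.1] at hf
    simpa [sgn] using D4.checked.xg_inj (by norm_num [n24]) hf
  · rw [act_xg φ (by norm_num) sym_vals.2.2.1] at hf
    simpa [sgn] using D4.checked.xg_inj (by norm_num [n24]) hf

theorem xV_fixed {f : V4 K} (h1 : φ f.1 = f.1) (h4 : φ f.2.2.2 = f.2.2.2) :
    xV φ f ∈ twistedD4 K q :=
  mul_mem (mul_mem (mul_mem (xg_fixed φ hφ hK (by simp) h1) (aG_fixed φ hφ hK _))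
    (bG_fixed φ hφ hK _)) (xg_fixed φ hφ hK (by simp) h4)

theorem cong_fixed {g h : GL chevD4.Idx K} (hg : g ∈ twistedD4 K q) (hh : h ∈ twistedD4 K q)
    (e : Cong g h) : ∃ c, φ c = c ∧ g = h * X 23 c := by
  obtain ⟨c, rfl⟩ := e
  exact ⟨c, xg_mem_fixed φ hφ hK (by simp) ((Subgroup.mul_mem_cancel_left _ hh).1 hg), rfl⟩

include hq

theorem xV_top {f : V4 K} {c : K} (h : xV φ f = X 23 c) : f = 0 := by
  have half : ∀ (f : V4 K) (c : K), xV φ f = X 23 c → f.1 = 0 ∧ f.2.1 = 0 := by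
    intro f c h
    have e : ∀ g, sForm φ f g = 0 := fun g => by
      have e1 := xV_comm φ f g
      rw [h, ← (top_comm (xV_mem φ g) c).eq] at e1
      exact D4.checked.xg_eq_one (by norm_num [n24]) (left_eq_mul.1 e1)
    refine ⟨by simpa [sForm, tr3] using e (0, 0, 0, 1), ?_⟩
    by_contra ht
    obtain ⟨u, hu⟩ := exists_tr3_ne φ hφ hK hq
    have := e (0, 0, (f.2.1)⁻¹ * u, 0)
    simp only [sForm, zero_mul, mul_zero, sub_zero, tr3_add, tr3, map_zero, add_zero, ← mul_assoc,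
      mul_inv_cancel₀ ht, one_mul] at this
    exact hu (by simp only [tr3]; linear_combination -this)
  obtain ⟨h1, h2⟩ := half f c h
  obtain ⟨d, hd⟩ := nG_conj φ f
  rw [h, nG_top] at hd
  obtain ⟨h4, h3⟩ := half (f.2.2.2, -f.2.2.1, f.2.1, -f.1) (c - d) (by
    rw [sub_eq_add_neg, ← D4.checked.xg_add (by norm_num [n24]), hd, mul_assoc,
      D4.checked.xg_add (by norm_num [n24]), add_neg_cancel, D4.checked.xg_zero, mul_one])
  exact Prod.ext h1 (Prod.ext h2 (Prod.ext (by simpa using h3) h4))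

theorem xV_inj {f g : V4 K} (h : Cong (xV φ f) (xV φ g)) : f = g := by
  obtain ⟨a, ha⟩ := h
  obtain ⟨b, hb⟩ := xV_add φ g (f - g)
  rw [show g + (f - g) = f by abel, ha] at hb
  refine sub_eq_zero.1 (xV_top φ hφ hK hq (c := a + b) ?_)
  rw [← D4.checked.xg_add (by norm_num [n24])]
  exact mul_left_cancel (hb.trans (mul_assoc _ _ _))

theorem X22_ne_top {a c : K} (h : X 22 a = X 23 c) : a = 0 :=
  congrArg (fun f : V4 K => f.2.2.2) (xV_top φ hφ hK hq (f := (0, 0, 0, a)) ((xV_single22 φ a).symm.trans h))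

omit hq in
theorem uG_pos (v : K) : uG φ v ∈ chevD4.posUnipotent K :=
  mul_mem (mul_mem (D4.checked.xg_mem_pos (by decide +kernel) _) (D4.checked.xg_mem_pos (by decide +kernel) _))
    (D4.checked.xg_mem_pos (by decide +kernel) _)

omit hφ hK hq [Fintype K] in
theorem xV_pos (f : V4 K) : xV φ f ∈ chevD4.posUnipotent K := by
  have m : ∀ r ∈ radRoots, ∀ t : K, X r t ∈ chevD4.posUnipotent K := by
    intro r hr t
    exact D4.checked.xg_mem_pos ((show ∀ r ∈ radRoots, chevD4.IsPosRoot r by decide +kernel) r hr) t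
  exact mul_mem (mul_mem (mul_mem (m 14 (radMem (by simp)) _)
    (mul_mem (mul_mem (m 19 (radMem (by simp)) _) (m 16 (radMem (by simp)) _)) (m 15 (radMem (by simp)) _)))
    (mul_mem (mul_mem (m 17 (radMem (by simp)) _) (m 20 (radMem (by simp)) _)) (m 21 (radMem (by simp)) _)))
    (m 22 (radMem (by simp)) _)

omit hφ hK hq [Fintype K] in
theorem X23_pos (c : K) : X 23 c ∈ chevD4.posUnipotent K :=
  D4.checked.xg_mem_pos (by decide +kernel) c

/-- the unipotent part of the Borel subgroup -/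
theorem uni_coords {u : GL chevD4.Idx K} (h1 : u ∈ chevD4.posUnipotent K) (h2 : u ∈ twistedD4 K q) :
    ∃ (v : K) (f : V4 K) (c : K), φ f.1 = f.1 ∧ φ f.2.2.2 = f.2.2.2 ∧ φ c = c ∧
      u = uG φ v * xV φ f * X 23 c := by
  let T := K × (Fld φ × K × K × Fld φ) × Fld φ
  let j : Fld φ × K × K × Fld φ → V4 K := fun f => ((f.1 : K), f.2.1, f.2.2.1, (f.2.2.2 : K))
  let f : T → ↥(chevD4.posUnipotent K ⊓ twistedD4 K q) := fun p =>
    ⟨uG φ p.1 * xV φ (j p.2.1) * X 23 (p.2.2 : K), Subgroup.mem_inf.2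
      ⟨mul_mem (mul_mem (uG_pos φ hφ hK _) (xV_pos φ _)) (X23_pos _),
        mul_mem (mul_mem (uG_fixed φ hφ hK _) (xV_fixed φ hφ hK (fld_spec φ _) (fld_spec φ _)))
          (xg_fixed φ hφ hK (by simp) (fld_spec φ _))⟩⟩
  have hinj : Function.Injective f := by
    rintro ⟨v, g, c⟩ ⟨v', g', c'⟩ e
    have e' : uG φ v * xV φ (j g) * X 23 (c : K) = uG φ v' * xV φ (j g') * X 23 (c' : K) :=
      congrArg Subtype.val e
    have h := fun (w : K) (x : V4 K) (d : K) => bC14 φ (phi3 φ hφ hK) w x d (a := 1) (b := 1)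
      one_ne_zero one_ne_zero (map_one φ) (by simp [nm3])
    have hb : bC φ v (j g) (c : K) 1 1 = bC φ v' (j g') (c' : K) 1 1 := by rw [bC, bC, e']
    have hl := xV_inj φ hφ hK hq (cong_trans (cong_symm (h v (j g) c)) (hb ▸ h v' (j g') c'))
    have hv : v = v' := by simpa [lineV_eq, nm3] using congrArg (fun x : V4 K => x.2.1) hl
    subst hv
    rw [mul_assoc, mul_assoc (uG φ v)] at e'
    have e2 := mul_left_cancel e'
    have hg : j g = j g' := xV_inj φ hφ hK hq ⟨(c' : K) - c, by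
      rw [eq_comm, sub_eq_add_neg, ← D4.checked.xg_add (by norm_num [n24]), ← mul_assoc, ← e2, mul_assoc,
        D4.checked.xg_add (by norm_num [n24]), add_neg_cancel, D4.checked.xg_zero, mul_one]⟩
    rw [hg] at e2
    have hc : c = c' := Subtype.ext (D4.checked.xg_inj (by norm_num [n24]) (mul_left_cancel e2))
    subst hc
    obtain ⟨a, b, b', a'⟩ := g
    obtain ⟨x, y, y', x'⟩ := g'
    simp only [j, Prod.mk.injEq] at hg
    obtain ⟨ha, hb, hb', ha'⟩ := hg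
    rw [Subtype.ext ha, hb, hb', Subtype.ext ha']
  have hcard : Nat.card T = Nat.card ↥(chevD4.posUnipotent K ⊓ twistedD4 K q) := by
    rw [D4.card_unipotent φ hφ (by omega) hK]
    simp only [T, Nat.card_prod, card_fld φ hφ hK hq, Nat.card_eq_fintype_card (α := K), hK]
    ring
  obtain ⟨⟨v, g, c⟩, hp⟩ :=
    ((Nat.bijective_iff_injective_and_card f).2 ⟨hinj, hcard⟩).2 ⟨u, Subgroup.mem_inf.2 ⟨h1, h2⟩⟩
  exact ⟨v, j g, c, fld_spec φ g.1, fld_spec φ g.2.2.2, fld_spec φ c, (congrArg Subtype.val hp).symm⟩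

theorem torus_coords {h : GL chevD4.Idx K} (h1 : h ∈ chevD4.diagonalSubgroup K)
    (h2 : h ∈ twistedD4 K q) : ∃ a b : K, a ≠ 0 ∧ b ≠ 0 ∧ φ b = b ∧ h = hG φ a * H 14 b := by
  rw [D4.eq_fixed φ hφ hK] at h2
  have hper : ∀ t : K, φ^[3] t = t := frob_per hφ hK
  obtain ⟨c, hc, rfl⟩ := (D4.tw φ).exists_fixed_torus (D4.pinv_spec φ) (D4.torMap_per φ hper) D4.ker_exp
    (by norm_num) h1 h2
  obtain ⟨a, b, hb, rfl⟩ := (D4.fixed_iff φ hper c).1 hc
  refine ⟨a, b, Units.ne_zero a, Units.ne_zero b, hb, ?_⟩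
  obtain ⟨s0, s1, s2, s3⟩ : chevD4.simple 0 = 18 ∧ chevD4.simple 1 = 14 ∧ chevD4.simple 2 = 13 ∧
    chevD4.simple 3 = 12 := by decide +kernel
  have hh : ∀ (r : ℕ) (t : K), D4.checked.wg (chevD4.hWord r t) = H r t := fun _ _ => rfl
  have e : D4.checked.torus (D4.torVec φ a b) =
      H 18 (a : K) * H 14 (b : K) * H 13 (φ a) * H 12 (φ (φ a)) := by
    rw [Checked.torus, show List.range chevD4.rank = [0, 1, 2, 3] by rw [D4.rank_eq]; rfl]
    simp [List.range_succ, D4.checked.val_wg_append, torVal, D4.torVec, D4.rank_eq, s0, s1, s2, s3, hh,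
      D4.checked.wg_nil, mul_assoc]
  rw [e, hG]
  have d := fun r (h : r < 24) (t : K) (ht : t ≠ 0) => D4.checked.hg_mem (F := K) (r := r)
    (by simpa [n24] using h) ht
  have c1 : H 14 (b : K) * (H 13 (φ a) * H 12 (φ (φ a))) = H 13 (φ a) * H 12 (φ (φ a)) * H 14 (b : K) :=
    D4.checked.diag_comm (d 14 (by norm_num) _ (Units.ne_zero b))
      (mul_mem (d 13 (by norm_num) _ ((map_ne_zero φ).2 (Units.ne_zero a)))
        (d 12 (by norm_num) _ ((map_ne_zero φ).2 ((map_ne_zero φ).2 (Units.ne_zero a)))))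
  simp only [mul_assoc] at c1 ⊢
  rw [c1]

theorem borel_coords {g : GL chevD4.Idx K} (h1 : g ∈ chevD4.borelSubgroup K) (h2 : g ∈ twistedD4 K q) :
    ∃ (v : K) (f : V4 K) (c a b : K), φ f.1 = f.1 ∧ φ f.2.2.2 = f.2.2.2 ∧ φ c = c ∧
      a ≠ 0 ∧ b ≠ 0 ∧ φ b = b ∧ g = bC φ v f c a b := by
  have hE := D4.eq_fixed φ hφ hK
  rw [hE] at h2
  obtain ⟨u, hu, huf, h, hh, hhf, rfl⟩ := (D4.tw φ).fixed_borel h1 h2
  obtain ⟨v, f, c, hf1, hf4, hc, rfl⟩ := uni_coords φ hφ hK hq hu (hE ▸ huf)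
  obtain ⟨a, b, ha, hb, hbf, rfl⟩ := torus_coords φ hφ hK hq hh (hE ▸ hhf)
  exact ⟨v, f, c, a, b, hf1, hf4, hc, ha, hb, hbf, rfl⟩

omit hq in
theorem hG_H14_diag {a b : K} (ha : a ≠ 0) (hb : b ≠ 0) :
    hG φ a * H 14 b ∈ chevD4.diagonalSubgroup K := by
  have d := fun r (h : r < 24) (t : K) (ht : t ≠ 0) => D4.checked.hg_mem (F := K) (r := r)
    (by simpa [n24] using h) ht
  exact mul_mem (mul_mem (mul_mem (d 18 (by norm_num) _ ha) (d 13 (by norm_num) _ ((map_ne_zero φ).2 ha)))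
    (d 12 (by norm_num) _ ((map_ne_zero φ).2 ((map_ne_zero φ).2 ha)))) (d 14 (by norm_num) _ hb)

theorem nG_pull_borel {f : V4 K} {c a b : K} (ha : a ≠ 0) (hb : b ≠ 0) :
    (nG : GL chevD4.Idx K)⁻¹ * (xV φ f * X 23 c * (hG φ a * H 14 b)) * nG ∈ chevD4.borelSubgroup K := by
  have hn : (nG : GL chevD4.Idx K) ∈ chevD4.monomialSubgroup K :=
    mul_mem (mul_mem (D4.checked.ng_mem (by norm_num [rk4])) (D4.checked.ng_mem (by norm_num [rk4])))
      (D4.checked.ng_mem (by norm_num [rk4]))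
  have hd := D4.checked.mono_conj_diag (inv_mem hn) _ (hG_H14_diag φ hφ hK ha hb)
  rw [inv_inv] at hd
  obtain ⟨e, he⟩ := nG_pull φ f
  have hz : (nG : GL chevD4.Idx K)⁻¹ * X 23 c * nG = X 23 c := by
    conv_lhs => rw [← nG_top c]
    group
  have h : (nG : GL chevD4.Idx K)⁻¹ * (xV φ f * X 23 c * (hG φ a * H 14 b)) * nG =
      (nG⁻¹ * xV φ f * nG) * (nG⁻¹ * X 23 c * nG) * (nG⁻¹ * (hG φ a * H 14 b) * nG) := by group
  rw [h, he, hz]
  exact mul_mem (Subgroup.mem_sup_left (mul_mem (mul_mem (xV_pos φ _) (X23_pos _)) (X23_pos _)))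
    (Subgroup.mem_sup_right hd)

omit hq in
theorem mem_topGrp {x : GL chevD4.Idx K} :
    x ∈ Subgroup.closure {x : GL chevD4.Idx K | ∃ c, φ c = c ∧ x = X 23 c} ↔
      ∃ c, φ c = c ∧ x = X 23 c := by
  refine ⟨fun hx => ?_, fun h => Subgroup.subset_closure h⟩
  induction hx using Subgroup.closure_induction with
  | mem y hy => exact hy
  | one => exact ⟨0, map_zero φ, (D4.checked.xg_zero 23).symm⟩
  | mul y z _ _ hy hz =>
    obtain ⟨a, ha, rfl⟩ := hy
    obtain ⟨b, hb, rfl⟩ := hz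
    exact ⟨a + b, by rw [map_add, ha, hb], D4.checked.xg_add (by norm_num [n24]) _ _⟩
  | inv y _ hy =>
    obtain ⟨a, ha, rfl⟩ := hy
    exact ⟨-a, by rw [map_neg, ha], D4.checked.xg_inv _ _⟩

omit hq in
theorem topStab_conj {g : GL chevD4.Idx K} (hg : g ∈ topStab q φ) {c : K} (hc : φ c = c) :
    ∃ k, φ k = k ∧ g * X 23 c * g⁻¹ = X 23 k :=
  (mem_topGrp φ hφ hK).1 ((Subgroup.mem_normalizer_iff.1 (Subgroup.mem_inf.1 hg).2 _).1
    ((mem_topGrp φ hφ hK).2 ⟨c, hc, rfl⟩))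

omit hq in
theorem mem_topStab {g : GL chevD4.Idx K} (hg : g ∈ twistedD4 K q)
    (h : ∀ c, φ c = c → ∃ k, φ k = k ∧ g * X 23 c * g⁻¹ = X 23 k) : g ∈ topStab q φ := by
  classical
  haveI : Finite (GL chevD4.Idx K) := inferInstance
  refine Subgroup.mem_inf.2 ⟨hg, ?_⟩
  set Z : Subgroup (GL chevD4.Idx K) := Subgroup.closure {x | ∃ c, φ c = c ∧ x = X 23 c}
  have hle : ∀ x ∈ Z, g * x * g⁻¹ ∈ Z := fun x hx => by
    obtain ⟨c, hc, rfl⟩ := (mem_topGrp φ hφ hK).1 hx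
    exact (mem_topGrp φ hφ hK).2 (h c hc)
  have hb : Function.Bijective (fun x : Z => (⟨g * x * g⁻¹, hle x x.2⟩ : Z)) :=
    Finite.injective_iff_bijective.1 fun x y e => Subtype.ext (by
      simpa using congrArg Subtype.val e)
  refine Subgroup.mem_normalizer_iff.2 fun x => ⟨hle x, fun hx => ?_⟩
  obtain ⟨⟨y, hy⟩, e⟩ := hb.2 ⟨_, hx⟩
  obtain rfl : y = x := by simpa using congrArg Subtype.val e
  exact hy

theorem borel_le_topStab {g : GL chevD4.Idx K} (h1 : g ∈ chevD4.borelSubgroup K) (h2 : g ∈ twistedD4 K q) :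
    g ∈ topStab q φ := by
  obtain ⟨v, f, c, a, b, -, -, -, ha, hb, hbf, rfl⟩ := borel_coords φ hφ hK hq h1 h2
  exact mem_topStab φ hφ hK h2 fun d hd => ⟨b * d, by rw [map_mul, hbf, hd], bC_top φ v f c ha hb d⟩

omit hq in
theorem nG_topStab : nG ∈ topStab q φ :=
  mem_topStab φ hφ hK (nG_fixed φ hφ hK) fun c hc => ⟨c, hc, nG_top c⟩

omit hq in
theorem uG_topStab (v : K) : uG φ v ∈ topStab q φ :=
  mem_topStab φ hφ hK (uG_fixed φ hφ hK v) fun c hc =>
    ⟨c, hc, conj_of_comm (top_comm (uG_mem φ v) c).symm⟩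

theorem topStab_cases {g : GL chevD4.Idx K} (hg : g ∈ topStab q φ) :
    g ∈ chevD4.borelSubgroup K ∨ ∃ v : K, ∃ b ∈ chevD4.borelSubgroup K ⊓ twistedD4 K q,
      g = uG φ v * nG * b := by
  have O := D4.tw_orth φ
  have G := D4.gens φ hφ hK
  let P := O.bnPairT G (D4.diag_fixed_le φ hφ hK)
  let Q : Subgroup ↥(twistedD4 K q) := (topStab q φ).subgroupOf (twistedD4 K q)
  have hB : P.B ≤ Q := fun x hx => borel_le_topStab φ hφ hK hq (Subgroup.mem_inf.1 hx).1 x.2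
  have hS : ∀ s ∈ P.S, s ∈ Q → (s : GL chevD4.Idx K) = nG := by
    rintro s ⟨j, hj, e⟩ hs
    have hp0 : D4.sym.p 0 = 2 := (D4.node_check 0 (by norm_num)).1
    have hp2 : D4.sym.p 2 = 3 := (D4.node_check 2 (by norm_num)).1
    have e0 : (D4.tw φ).wN 3 0 = nG := by
      rw [Twist.wN, D4.len_simple φ (by norm_num), if_neg (by norm_num)]
      simp only [Twist.orbProd, List.range_succ, List.range_zero, List.nil_append, List.cons_append,
        List.map_cons, List.map_nil, List.prod_cons, List.prod_nil, mul_one,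
        (D4.tw φ).iter_ng (j := 0) (by norm_num [rk4])]
      show N₀ 0 * (N₀ (D4.sym.p 0) * N₀ (D4.sym.p (D4.sym.p 0))) = _
      rw [hp0, hp2, nG, mul_assoc]
    have hj' : j < 4 := by simpa [rk4] using hj
    have e2 : (D4.tw φ).wN 3 2 = nG := by
      rw [← e0, ← O.wN_iter (j := 0) (by norm_num [rk4]) 1]
      show _ = (D4.tw φ).wN 3 (D4.sym.p 0)
      rw [hp0]
    have e3 : (D4.tw φ).wN 3 3 = nG := by
      rw [← e0, ← O.wN_iter (j := 0) (by norm_num [rk4]) 2]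
      show _ = (D4.tw φ).wN 3 (D4.sym.p (D4.sym.p 0))
      rw [hp0, hp2]
    interval_cases j
    · exact e.trans e0
    · exfalso
      have e1 : (D4.tw φ).wN 3 1 = N₀ 1 := by
        rw [Twist.wN, D4.len_simple φ (by norm_num), if_pos rfl]
        simp [Twist.orbProd]
      obtain ⟨k, -, hk⟩ := topStab_conj φ hφ hK (Subgroup.mem_subgroupOf.1 hs) (c := 1) (map_one φ)
      rw [e, e1, ng_rel (s' := 22) (e := true) (by norm_num) (by norm_num) (by decide +kernel)] at hk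
      simpa [sgn] using X22_ne_top φ hφ hK hq hk
    · exact e.trans e2
    · exact e.trans e3
  have hgG : g ∈ twistedD4 K q := (Subgroup.mem_inf.1 hg).1
  have hgQ : (⟨g, hgG⟩ : ↥(twistedD4 K q)) ∈ P.parabolic (P.S ∩ Q) := by
    rw [← BN.overgroup_eq P hB]; exact hg
  obtain ⟨L, hL, hc⟩ := BN.exists_word_of_mem_parabolic P (Set.inter_subset_left) hgQ
  by_cases hne : ∃ s : P.S, (s : ↥(twistedD4 K q)) ∈ Q
  swap
  · rcases L with _ | ⟨s, L⟩
    · exact Or.inl (Subgroup.mem_inf.1 ((BN.mem_cell_one P).1 (by simpa [BN.word] using hc))).1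
    · exact absurd ⟨s, (hL s (by simp)).2⟩ hne
  obtain ⟨s, hs⟩ := hne
  have hall : ∀ r ∈ L, r = s := fun r hr => Subtype.ext (Subtype.ext
    ((hS r r.2 (hL r hr).2).trans (hS s s.2 hs).symm))
  have hw : BN.word P L = 1 ∨ BN.word P L = BN.si P s := by
    clear hgQ hL hc
    induction L with
    | nil => exact Or.inl (BN.word_nil P)
    | cons r L ih =>
      rw [BN.word_cons, hall r (by simp)]
      rcases ih (fun r hr => hall r (by simp [hr])) with h | h <;> rw [h]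
      · exact Or.inr (mul_one _)
      · exact Or.inl (BN.si_mul_self P s)
  rcases hw with h | h <;> rw [h] at hc
  · exact Or.inl (Subgroup.mem_inf.1 ((BN.mem_cell_one P).1 hc)).1
  · obtain ⟨b₁, hb₁, b₂, hb₂, e⟩ := (BN.mem_cell_cls P).1 (by rw [BN.si] at hc; exact hc)
    have e' : g = (b₁ : GL chevD4.Idx K) * nG * (b₂ : GL chevD4.Idx K) := by
      have := congrArg Subtype.val e
      rw [← hS s s.2 hs]
      simpa using this
    obtain ⟨v, f, c, a, b, -, -, -, ha, hb, -, hb₁'⟩ :=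
      borel_coords φ hφ hK hq (Subgroup.mem_inf.1 hb₁).1 b₁.2
    rw [Subgroup.subtype_apply] at hb₁'
    refine Or.inr ⟨v, (nG⁻¹ * (xV φ f * X 23 c * (hG φ a * H 14 b)) * nG) * (b₂ : GL chevD4.Idx K), Subgroup.mem_inf.2
      ⟨mul_mem (nG_pull_borel φ hφ hK hq ha hb) (Subgroup.mem_inf.1 hb₂).1, ?_⟩, ?_⟩
    · have : nG⁻¹ * (xV φ f * X 23 c * (hG φ a * H 14 b)) * nG * (b₂ : GL chevD4.Idx K) =
          nG⁻¹ * ((uG φ v)⁻¹ * g) := by rw [e', hb₁', bC]; group
      rw [this]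
      exact mul_mem (inv_mem (nG_fixed φ hφ hK)) (mul_mem (inv_mem (uG_fixed φ hφ hK v)) hgG)
    · rw [e', hb₁', bC]; group

theorem bruhat_disjoint {v v' : K} {b b' : GL chevD4.Idx K} (hb : b ∈ chevD4.borelSubgroup K)
    (hbG : b ∈ twistedD4 K q) :
    (uG φ v * nG * b ∉ chevD4.borelSubgroup K) ∧
    (b' ∈ chevD4.borelSubgroup K ⊓ twistedD4 K q → uG φ v * nG * b = uG φ v' * nG * b' → v = v') := by
  have img : ∀ (w : K) (x : GL chevD4.Idx K), x ∈ chevD4.borelSubgroup K → x ∈ twistedD4 K q →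
      ∃ k, k ≠ 0 ∧ Cong (uG φ w * nG * x * X 22 1 * (uG φ w * nG * x)⁻¹) (xV φ (lineV φ w k)) := by
    intro w x hx hxG
    obtain ⟨u, f, c, a, d, -, -, -, ha, hd, hdf, rfl⟩ := borel_coords φ hφ hK hq hx hxG
    have hn : φ (nm3 φ a * d⁻¹) = nm3 φ a * d⁻¹ := by
      rw [map_mul, map_inv₀, nm3_mem φ hφ hK hq a, hdf]
    refine ⟨nm3 φ a * d⁻¹, mul_ne_zero (mul_ne_zero (mul_ne_zero ha ((map_ne_zero φ).2 ha))
      ((map_ne_zero φ).2 ((map_ne_zero φ).2 ha))) (inv_ne_zero hd), ?_⟩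
    obtain ⟨e, he⟩ := bC22 φ u f c ha hd
    have h1 : uG φ w * nG * bC φ u f c a d * X 22 1 * (uG φ w * nG * bC φ u f c a d)⁻¹ =
        uG φ w * (nG * (bC φ u f c a d * X 22 1 * (bC φ u f c a d)⁻¹) * nG⁻¹) * (uG φ w)⁻¹ := by group
    rw [h1, he, show ∀ p z : GL chevD4.Idx K, nG * (p * z) * nG⁻¹ = (nG * p * nG⁻¹) * (nG * z * nG⁻¹) from
      fun p z => by group, nG22, nG_top]
    exact cong_trans (cong_conj_C23 (uG_mem φ w) ⟨e, rfl⟩) (uG_line φ (phi3 φ hφ hK) w hn)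
  constructor
  · intro h
    obtain ⟨u, f, c, a, d, -, -, -, ha, hd, -, e⟩ := borel_coords φ hφ hK hq h
      (mul_mem (mul_mem (uG_fixed φ hφ hK v) (nG_fixed φ hφ hK)) hbG)
    obtain ⟨k, hk, hl⟩ := img v b hb hbG
    rw [e] at hl
    have h22 := bC22 φ u f c ha hd
    conv at h22 => arg 2; rw [xV_single22 φ]
    have := congrArg (fun x : V4 K => x.1) (xV_inj φ hφ hK hq (cong_trans (cong_symm hl) h22))
    rw [lineV_eq] at this
    exact hk this
  · intro hb' e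
    obtain ⟨k, hk, hl⟩ := img v b hb hbG
    obtain ⟨k', -, hl'⟩ := img v' b' (Subgroup.mem_inf.1 hb').1 (Subgroup.mem_inf.1 hb').2
    rw [e] at hl
    have h := xV_inj φ hφ hK hq (cong_trans (cong_symm hl) hl')
    rw [lineV_eq, lineV_eq] at h
    obtain rfl : k = k' := congrArg (fun x : V4 K => x.1) h
    have h2 := congrArg (fun x : V4 K => x.2.1) h
    simpa [hk] using h2

theorem card_topStab_ge :
    (q ^ 3 + 1) * (q ^ 12 * ((q - 1) ^ 2 * (q ^ 2 + q + 1))) ≤ Nat.card ↥(topStab q φ) := by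
  classical
  have hE := D4.eq_fixed φ hφ hK
  have hcard : Nat.card ↥(chevD4.borelSubgroup K ⊓ twistedD4 K q) =
      q ^ 12 * ((q - 1) ^ 2 * (q ^ 2 + q + 1)) := by
    rw [hE, (D4.tw_orth φ).card_borel_fixed, ← hE, D4.card_unipotent φ hφ (by omega) hK,
      D4.card_diag φ hφ hq hK]
  let f : Option K × ↥(chevD4.borelSubgroup K ⊓ twistedD4 K q) → ↥(topStab q φ) := fun p =>
    match p.1 with
    | none => ⟨p.2.1, borel_le_topStab φ hφ hK hq (Subgroup.mem_inf.1 p.2.2).1 (Subgroup.mem_inf.1 p.2.2).2⟩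
    | some v => ⟨uG φ v * nG * p.2.1, mul_mem (mul_mem (uG_topStab φ hφ hK v) (nG_topStab φ hφ hK))
        (borel_le_topStab φ hφ hK hq (Subgroup.mem_inf.1 p.2.2).1 (Subgroup.mem_inf.1 p.2.2).2)⟩
  have hf : Function.Injective f := by
    rintro ⟨o, b, hb⟩ ⟨o', b', hb'⟩ e
    have e' := congrArg Subtype.val e
    have d := fun (v v' : K) (x x' : GL chevD4.Idx K) (hx : x ∈ chevD4.borelSubgroup K ⊓ twistedD4 K q) =>
      bruhat_disjoint φ hφ hK hq (v := v) (v' := v') (b' := x') (Subgroup.mem_inf.1 hx).1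
        (Subgroup.mem_inf.1 hx).2
    rcases o with _ | v <;> rcases o' with _ | v' <;> simp only [f] at e'
    · simpa using e'
    · exact absurd (e' ▸ (Subgroup.mem_inf.1 hb).1) (d v' v' b' b hb').1
    · exact absurd (e'.symm ▸ (Subgroup.mem_inf.1 hb').1) (d v v b b' hb).1
    · obtain rfl := (d v v' b b' hb).2 hb' e'
      simpa using e'
  have := Nat.card_le_card_of_injective f hf
  rw [Nat.card_prod, hcard, Finite.card_option, Nat.card_eq_fintype_card (α := K), hK] at this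
  exact this

end Fixed

end Cfsg.Agent.Lib.MinDegChev
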