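import Cfsg.Agent.Lib.MinDegChev.TriD4Par
import Cfsg.Agent.Lib.Chev.FoldD4
import Cfsg.Agent.Lib.Chev.Orders

/-!
The points of `³D₄(q)` over the fixed field form a maximal subgroup.
-/

set_option autoImplicit false
set_option maxRecDepth 4000

namespace Cfsg.Agent.Lib.MinDegChev

open Cfsg.Lie Cfsg.Agent.Lib Cfsg.Agent.Lib.Chev

local notation "X" => Cfsg.Agent.Lib.Chev.Checked.xg D4.checked
local notation "H" => Cfsg.Agent.Lib.Chev.Checked.hg D4.checked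
local notation "N₀" => Cfsg.Agent.Lib.Chev.Checked.ng D4.checked

variable {K : Type*} [Field K]

/-- the points over the fixed field -/
noncomputable def fixG (q : ℕ) (φ : K ≃+* K) : Subgroup (GL chevD4.Idx K) :=
  twistedD4 K q ⊓ (Gam φ).eqLocus (MonoidHom.id _)

theorem mem_fixG {q : ℕ} {φ : K ≃+* K} {g : GL chevD4.Idx K} :
    g ∈ fixG q φ ↔ g ∈ twistedD4 K q ∧ Gam φ g = g := Subgroup.mem_inf

theorem sForm_line (φ : K ≃+* K) (h3 : ∀ t, φ (φ (φ t)) = t) {k l : K} (hk : φ k = k) (hl : φ l = l) (v w : K) :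
    sForm φ (lineV φ v k) (lineV φ w l) = k * l * nm3 φ (v - w) := by
  simp only [sForm, lineV_eq, tr3, nm3, map_mul, map_sub, map_neg, hk, hl, h3]
  ring

theorem cong_comm (φ : K ≃+* K) {g h : GL chevD4.Idx K} {f f' : V4 K}
    (hg : Cong g (xV φ f)) (hh : Cong h (xV φ f')) : g * h = h * g * X 23 (sForm φ f f') := by
  obtain ⟨a, rfl⟩ := hg
  obtain ⟨b, rfl⟩ := hh
  have za : ∀ x, Commute (X 23 x) (xV φ f) := top_comm (xV_mem φ f)
  have zb : ∀ x, Commute (X 23 x) (xV φ f') := top_comm (xV_mem φ f')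
  have hz : ∀ x y : K, X 23 x * X 23 y = X 23 (x + y) := fun x y => D4.checked.xg_add (by norm_num [n24]) x y
  calc xV φ f * X 23 a * (xV φ f' * X 23 b) = xV φ f * (X 23 a * xV φ f') * X 23 b := by group
    _ = xV φ f * xV φ f' * (X 23 a * X 23 b) := by rw [(zb a).eq]; group
    _ = xV φ f' * xV φ f * (X 23 (sForm φ f f') * (X 23 a * X 23 b)) := by rw [xV_comm]; group
    _ = xV φ f' * (xV φ f * X 23 b) * X 23 a * X 23 (sForm φ f f') := by
        rw [hz, hz, mul_assoc, mul_assoc, mul_assoc, mul_assoc, hz, hz]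
        congr 3; ring
    _ = _ := by rw [← (za b).eq]; group

theorem nG_uG (φ : K ≃+* K) (t : K) :
    nG * uG φ t * nG⁻¹ = X 5 (-t) * X 10 (-φ t) * X 11 (-φ (φ t)) := by
  rw [uG, conj_mul3,
    nG_xg (s := 18) (s1 := 18) (s2 := 18) (s3 := 5) (e1 := false) (e2 := false) (e3 := true)
      (by norm_num) (by norm_num) (by norm_num) (by decide +kernel),
    nG_xg (s := 13) (s1 := 13) (s2 := 10) (s3 := 10) (e1 := false) (e2 := true) (e3 := false)
      (by norm_num) (by norm_num) (by norm_num) (by decide +kernel),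
    nG_xg (s := 12) (s1 := 11) (s2 := 11) (s3 := 11) (e1 := true) (e2 := false) (e3 := false)
      (by norm_num) (by norm_num) (by norm_num) (by decide +kernel)]
  simp [sgn]

theorem conj22_14 (φ : K ≃+* K) (e k : K) : X 22 e * X 14 k * (X 22 e)⁻¹ = X 14 k * X 23 (-(k * e)) := by
  have h := xV_comm φ (0, 0, 0, e) (k, 0, 0, 0)
  simp only [← xV_single22, ← xV_single14, sForm, tr3, zero_mul, mul_zero, map_zero, add_zero, sub_zero,
    zero_sub] at h
  rw [h, mul_assoc, (top_comm (mem_C23 K (r := 22) (by simp [radRoots]) (by norm_num) e) _).inv_right.eq]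
  group

/-- representatives of the points off the subfield orbit -/
noncomputable def pt (φ : K ≃+* K) : Option ({v : K // φ v ≠ v} × Fld φ) → GL chevD4.Idx K
  | none => 1
  | some y => uG φ (y.1 : K) * X 22 (y.2 : K) * (nG * N₀ 1)

/-- the root element at a point -/
noncomputable def lineEl (φ : K ≃+* K) (o : Option ({v : K // φ v ≠ v} × Fld φ)) (c : K) :
    GL chevD4.Idx K := pt φ o * X 23 c * (pt φ o)⁻¹

theorem lineEl_none (φ : K ≃+* K) (c : K) : lineEl φ none c = X 23 c := by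
  simp [lineEl, pt]

theorem lineEl_some (φ : K ≃+* K) (y : {v : K // φ v ≠ v} × Fld φ) (c : K) :
    lineEl φ (some y) c = uG φ (y.1 : K) * X 14 (-c) * (uG φ (y.1 : K))⁻¹ * X 23 (c * (y.2 : K)) := by
  have h : lineEl φ (some y) c =
      uG φ (y.1 : K) * (X 22 (y.2 : K) * ((nG * N₀ 1) * X 23 c * (nG * N₀ 1)⁻¹) * (X 22 (y.2 : K))⁻¹) *
        (uG φ (y.1 : K))⁻¹ := by
    simp only [lineEl, pt]; group
  rw [h, g_conj_top, conj22_14 φ, neg_mul, neg_neg, mul_assoc (uG φ _), mul_assoc (X 14 _),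
    (top_comm (inv_mem (uG_mem φ _)) _).eq]
  group

section Fin

variable {q : ℕ} [Fintype K] (φ : K ≃+* K) (hφ : ∀ t, φ t = t ^ q) (hK : Fintype.card K = q ^ 3)
include hφ hK

theorem lineEl_cong (y : {v : K // φ v ≠ v} × Fld φ) {c : K} (hc : φ c = c) :
    Cong (lineEl φ (some y) c) (xV φ (lineV φ (y.1 : K) (-c))) := by
  rw [lineEl_some]
  exact cong_trans ⟨_, rfl⟩ (uG_line φ (phi3 φ hφ hK) _ (by rw [map_neg, hc]))

theorem pt_mem (o : Option ({v : K // φ v ≠ v} × Fld φ)) : pt φ o ∈ twistedD4 K q := by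
  rcases o with _ | y
  · exact one_mem _
  · exact mul_mem (mul_mem (uG_fixed φ hφ hK _) (xg_fixed φ hφ hK (by simp) (fld_spec φ _)))
      (mul_mem (nG_fixed φ hφ hK) (ng1_fixed φ hφ hK))

theorem lineEl_mem (o : Option ({v : K // φ v ≠ v} × Fld φ)) {c : K} (hc : φ c = c) :
    lineEl φ o c ∈ twistedD4 K q :=
  mul_mem (mul_mem (pt_mem φ hφ hK o) (xg_fixed φ hφ hK (by simp) hc)) (inv_mem (pt_mem φ hφ hK o))

theorem xg_mem_fixG {r : ℕ} (hr : r ∈ [14, 22, 23]) {c : K} (hc : φ c = c) : X r c ∈ fixG q φ := by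
  refine mem_fixG.2 ⟨xg_fixed φ hφ hK hr hc, ?_⟩
  rw [gmap_X φ (by simp only [List.mem_cons, List.not_mem_nil, or_false] at hr; omega), hc]

theorem uG_mem_fixG {t : K} (h : φ t = t) : uG φ t ∈ fixG q φ :=
  mem_fixG.2 ⟨uG_fixed φ hφ hK t, by rw [gmap_uG, h]⟩

theorem aG_mem_fixG {t : K} (h : φ t = t) : aG φ t ∈ fixG q φ :=
  mem_fixG.2 ⟨aG_fixed φ hφ hK t, by rw [gmap_aG, h]⟩

theorem bG_mem_fixG {t : K} (h : φ t = t) : bG φ t ∈ fixG q φ :=
  mem_fixG.2 ⟨bG_fixed φ hφ hK t, by rw [gmap_bG, h]⟩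

theorem nG_mem_fixG : nG ∈ fixG q φ := mem_fixG.2 ⟨nG_fixed φ hφ hK, gmap_nG φ⟩

theorem ng1_mem_fixG : N₀ 1 ∈ fixG q φ := mem_fixG.2 ⟨ng1_fixed φ hφ hK, gmap_ng1 φ⟩

theorem bC_mem_fixG {v c a b : K} {f : V4 K} (hv : φ v = v) (h1 : φ f.1 = f.1) (h2 : φ f.2.1 = f.2.1)
    (h3 : φ f.2.2.1 = f.2.2.1) (h4 : φ f.2.2.2 = f.2.2.2) (hc : φ c = c) (ha : a ≠ 0) (ha' : φ a = a)
    (hb : b ≠ 0) (hb' : φ b = b) : bC φ v f c a b ∈ fixG q φ :=
  mul_mem (mul_mem (mul_mem (uG_mem_fixG φ hφ hK hv)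
    (mem_fixG.2 ⟨xV_fixed φ hφ hK h1 h4, by rw [gmap_xV, h1, h2, h3, h4]⟩))
    (xg_mem_fixG φ hφ hK (by simp) hc))
    (mem_fixG.2 ⟨mul_mem (hG_fixed φ hφ hK ha) (hg_fixed φ hφ hK (by simp) hb hb'),
      by rw [map_mul, gmap_hG, ha', gmap_H φ (by norm_num), hb']⟩)

theorem act_gmap {F : Type*} [Field F] [Fintype F] (i : F →+* K) (hi : ∀ x, φ (i x) = i x)
    {g : GL chevD4.Idx F} (hg : g ∈ chevD4.group F) :
    (D4.tw φ).act (gmap chevD4 i g) = gmap chevD4 i ((D4.tw (RingEquiv.refl F)).act g) := by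
  unfold ChevalleyDatum.group at hg
  induction hg using Subgroup.closure_induction with
  | mem x hx =>
    obtain ⟨⟨r, hr⟩, t, hx⟩ := hx
    rw [show x = D4.checked.xg r t from Units.ext (hx.trans (x_eq_xMat hr t).symm)]
    have hs : D4.sym.r r < chevD4.nroots := (D4.tw φ).ρ_lt r hr
    have hr' : r < 24 := by simpa [n24] using hr
    rw [D4.checked.gmap_xg i hr, act_xg φ hr' ⟨rfl, rfl⟩, act_xg (RingEquiv.refl F) hr' ⟨rfl, rfl⟩,
      D4.checked.gmap_xg i hs]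
    simp [hi]
  | one => rw [map_one, Twist.act_one, Twist.act_one, map_one]
  | mul x y hx hy ihx ihy =>
    rw [map_mul, (D4.tw φ).act_mul (D4.checked.gmap_group i hx) (D4.checked.gmap_group i hy),
      (D4.tw (RingEquiv.refl F)).act_mul hx hy, map_mul, ihx, ihy]
  | inv x hx ih =>
    rw [map_inv, (D4.tw φ).act_inv (D4.checked.gmap_group i hx),
      (D4.tw (RingEquiv.refl F)).act_inv hx, map_inv, ih]

variable (hq : 2 ≤ q)
include hq

theorem card_fixG_ge : q ^ 6 * (q ^ 2 - 1) * (q ^ 6 - 1) ≤ Nat.card ↥(fixG q φ) := by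
  letI : Fintype (Fld φ) := Fintype.ofFinite _
  have hF : Fintype.card (Fld φ) = q := by rw [← Nat.card_eq_fintype_card, card_fld φ hφ hK hq]
  obtain ⟨e⟩ := D4.folded (F := Fld φ)
  let i : Fld φ →+* K := (Fld φ).subtype
  let f : ↥(D4.tw (RingEquiv.refl (Fld φ))).fixed → ↥(fixG q φ) := fun g => ⟨gmap chevD4 i g.1,
    mem_fixG.2 ⟨by
      refine mem_of_act φ hφ hK (D4.checked.gmap_group i g.2.1) ?_
      rw [act_gmap φ hφ hK i (fun x => fld_spec φ x) g.2.1, g.2.2],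
    by
      show gmap chevD4 φ.toRingHom (gmap chevD4 i g.1) = _
      rw [gmap_gmap, show φ.toRingHom.comp i = i from RingHom.ext fun x => fld_spec φ x]⟩⟩
  have hf : Function.Injective f := fun a b h =>
    Subtype.ext (gmap_injective i (congrArg Subtype.val h))
  have h := Nat.card_le_card_of_injective f hf
  rw [Nat.card_congr e.toEquiv] at h
  have h2 := card_G2 hF
  rw [one_mul] at h2
  rwa [h2] at h

theorem nm3_ne {a : K} (ha : a ≠ 0) : nm3 φ a ≠ 0 :=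
  mul_ne_zero (mul_ne_zero ha ((map_ne_zero φ).2 ha)) ((map_ne_zero φ).2 ((map_ne_zero φ).2 ha))

/-- three elements of a basis -/
theorem indep {t : K} (ht : φ t ≠ t) {a b c : K} (ha : φ a = a) (hb : φ b = b) (hc : φ c = c)
    (h : a + b * t + c * (φ t * φ (φ t)) = 0) : a = 0 ∧ b = 0 ∧ c = 0 := by
  have h3 := phi3 φ hφ hK
  have e0 : a * t + b * t ^ 2 + c * nm3 φ t = 0 := by
    simp only [nm3]; linear_combination t * h
  have e1 := congrArg φ e0
  simp only [map_add, map_mul, map_pow, map_zero, ha, hb, hc, nm3_mem φ hφ hK hq] at e1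
  have e2 := congrArg φ e1
  simp only [map_add, map_mul, map_pow, map_zero, ha, hb, hc, nm3_mem φ hφ hK hq] at e2
  have d1 : a + b * (φ t + t) = 0 := by
    refine (mul_eq_zero.1 (?_ : (φ t - t) * (a + b * (φ t + t)) = 0)).resolve_left (sub_ne_zero.2 ht)
    linear_combination e1 - e0
  have d2 : a + b * (φ (φ t) + φ t) = 0 := by
    have := congrArg φ d1
    simpa [ha, hb] using this
  have hb0 : b = 0 := by
    refine (mul_eq_zero.1 (?_ : b * (φ (φ t) - t) = 0)).resolve_right (sub_ne_zero.2 fun e => ht ?_)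
    · linear_combination d2 - d1
    · have := congrArg φ e
      rw [h3] at this
      exact this.symm
  have ha0 : a = 0 := by rw [hb0] at d1; simpa using d1
  refine ⟨ha0, hb0, ?_⟩
  rw [ha0, hb0] at e0
  have ht0 : t ≠ 0 := fun e => ht (by rw [e, map_zero])
  simpa [nm3_ne φ hφ hK hq ht0] using e0

section Over

variable {Hs : Subgroup (GL chevD4.Idx K)} (hMH : fixG q φ ≤ Hs) (hHG : Hs ≤ twistedD4 K q)
include hMH hHG

theorem extract {f : V4 K} {c : K} (h1 : φ f.1 = f.1) (h4 : φ f.2.2.2 = f.2.2.2) (hc : φ c = c)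
    (h : xV φ f * X 23 c ∈ Hs) : aG φ f.2.1 ∈ Hs ∧ aG φ f.2.2.1 ∈ Hs := by
  obtain ⟨s, t, t', s'⟩ := f
  have hz : ∀ {r : ℕ}, r ∈ [14, 22, 23] → ∀ {x : K}, φ x = x → X r x ∈ Hs := fun hr _ hx =>
    hMH (xg_mem_fixG φ hφ hK hr hx)
  have hx : xV φ (s, t, t', s') ∈ Hs := (Subgroup.mul_mem_cancel_right _ (hz (by simp) hc)).1 h
  have he : aG φ t * bG φ t' ∈ Hs := by
    have := mul_mem (mul_mem (inv_mem (hz (r := 14) (by simp) h1)) hx) (inv_mem (hz (r := 22) (by simp) h4))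
    convert this using 1
    simp only [xV]; group
  obtain ⟨w, hw, ew⟩ : ∃ w, φ w = w ∧ TU φ 1 ((0 : K), t, t', (0 : K)) =
      (0, t, t' + (φ (φ t) + φ t), w) := by
    refine ⟨tr3 φ t' + tr3 φ t, by rw [map_add, tr3_mem φ hφ hK hq, tr3_mem φ hφ hK hq], ?_⟩
    simp [TU]
  have hxe : xV φ ((0 : K), t, t', (0 : K)) = aG φ t * bG φ t' := by
    simp only [xV, D4.checked.xg_zero, one_mul, mul_one]
  have hcong := uG_conj φ (phi3 φ hφ hK) 1 ((0 : K), t, t', (0 : K)) (map_zero φ)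
  rw [ew, hxe] at hcong
  have h1u : uG φ (1 : K) ∈ Hs := hMH (uG_mem_fixG φ hφ hK (map_one φ))
  have hin : (uG φ 1)⁻¹ * (aG φ t * bG φ t') * uG φ 1 ∈ Hs := mul_mem (mul_mem (inv_mem h1u) he) h1u
  obtain ⟨d, hd, ed⟩ := cong_fixed φ hφ hK (hHG hin) (xV_fixed φ hφ hK (map_zero φ) hw) hcong
  have he2 : aG φ t * bG φ (t' + (φ (φ t) + φ t)) ∈ Hs := by
    have := mul_mem (mul_mem hin (inv_mem (hz (r := 23) (by simp) hd))) (inv_mem (hz (r := 22) (by simp) hw))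
    convert this using 1
    rw [ed]
    simp only [xV, D4.checked.xg_zero, one_mul]; group
  have hu : bG φ (φ (φ t) + φ t) ∈ Hs := by
    have := mul_mem (inv_mem he) he2
    convert this using 1
    rw [mul_inv_rev, mul_assoc, inv_mul_cancel_left, bG_inv, bG_add, neg_add_cancel_left]
  have hneg : bG φ (-t) ∈ Hs := by
    have := mul_mem hu (hMH (bG_mem_fixG φ hφ hK (t := -tr3 φ t) (by rw [map_neg, tr3_mem φ hφ hK hq])))
    rw [bG_add] at this
    convert this using 2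
    simp only [tr3]; ring
  have hn : nG ∈ Hs := hMH (nG_mem_fixG φ hφ hK)
  have ht : aG φ t ∈ Hs := by
    have := mul_mem (mul_mem hn hneg) (inv_mem hn)
    rwa [nG_bG, neg_neg] at this
  refine ⟨ht, ?_⟩
  have hb : bG φ t' ∈ Hs := (Subgroup.mul_mem_cancel_left _ ht).1 he
  have := mul_mem (mul_mem (inv_mem hn) hb) hn
  convert this using 1
  rw [← nG_aG]; group

theorem uG_of_aG {t : K} (h : aG φ (-t) ∈ Hs) : uG φ t ∈ Hs := by
  have hn : N₀ 1 ∈ Hs := hMH (ng1_mem_fixG φ hφ hK)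
  have := mul_mem (mul_mem hn h) (inv_mem hn)
  rwa [ng1_aG, neg_neg] at this

theorem line_extract {v k : K} (hk : φ k = k) {g : GL chevD4.Idx K} (hg : g ∈ Hs)
    (h : Cong g (xV φ (lineV φ v k))) : aG φ (-(v * k)) ∈ Hs ∧ aG φ (φ v * φ (φ v) * k) ∈ Hs := by
  have h4 : φ (-(nm3 φ v * k)) = -(nm3 φ v * k) := by rw [map_neg, map_mul, nm3_mem φ hφ hK hq, hk]
  have hf : xV φ (lineV φ v k) ∈ twistedD4 K q := by
    rw [lineV_eq]; exact xV_fixed φ hφ hK hk h4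
  obtain ⟨c, hc, rfl⟩ := cong_fixed φ hφ hK (hHG hg) hf h
  rw [lineV_eq] at hg
  exact extract φ hφ hK hq hMH hHG (f := (_, _, _, _)) hk h4 hc hg

theorem full_aG {t : K} (ht : φ t ≠ t) (h : aG φ t ∈ Hs) : ∀ x, aG φ x ∈ Hs := by
  classical
  have hadd : ∀ a b, aG φ a ∈ Hs → aG φ b ∈ Hs → aG φ (a + b) ∈ Hs := fun a b ha hb => by
    rw [← aG_add]; exact mul_mem ha hb
  have hneg : ∀ a, aG φ a ∈ Hs → aG φ (-a) ∈ Hs := fun a ha => by
    rw [show aG φ (-a) = (aG φ a)⁻¹ from (inv_eq_of_mul_eq_one_right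
      (by rw [aG_add, add_neg_cancel, aG_zero])).symm]
    exact inv_mem ha
  have hscal : ∀ k a : K, φ k = k → aG φ a ∈ Hs → aG φ (k * a) ∈ Hs := by
    intro k a hk ha
    by_cases h0 : k = 0
    · rw [h0, zero_mul, aG_zero]; exact one_mem _
    have hh : H 23 k ∈ Hs := hMH (mem_fixG.2 ⟨hg_fixed φ hφ hK (by simp) h0 hk,
      by rw [gmap_H φ (by norm_num), hk]⟩)
    have := mul_mem (mul_mem hh ha) (inv_mem hh)
    rw [xV_single19 φ a, h23_conj φ h0 hk] at this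
    simpa [← xV_single19] using this
  have hu : uG φ t ∈ Hs := uG_of_aG φ hφ hK hq hMH hHG (hneg t h)
  have hline := line_extract φ hφ hK hq hMH hHG (map_one φ)
    (mul_mem (mul_mem hu (hMH (xg_mem_fixG φ hφ hK (r := 14) (by simp) (map_one φ)))) (inv_mem hu))
    (uG_line φ (phi3 φ hφ hK) t (map_one φ))
  rw [mul_one, mul_one] at hline
  let ψ : Fld φ × Fld φ × Fld φ → K := fun p =>
    (p.1 : K) + (p.2.1 : K) * t + (p.2.2 : K) * (φ t * φ (φ t))
  have hinj : Function.Injective ψ := by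
    rintro ⟨a, b, c⟩ ⟨a', b', c'⟩ e
    obtain ⟨h1, h2, h3⟩ := indep φ hφ hK hq ht (a := (a : K) - a') (b := (b : K) - b') (c := (c : K) - c')
      (by rw [map_sub, fld_spec, fld_spec]) (by rw [map_sub, fld_spec, fld_spec])
      (by rw [map_sub, fld_spec, fld_spec]) (by simp only [ψ] at e; linear_combination e)
    simp [Subtype.ext (sub_eq_zero.1 h1), Subtype.ext (sub_eq_zero.1 h2), Subtype.ext (sub_eq_zero.1 h3)]
  have hcard : Nat.card (Fld φ × Fld φ × Fld φ) = Nat.card K := by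
    simp only [Nat.card_prod, card_fld φ hφ hK hq, Nat.card_eq_fintype_card (α := K), hK]; ring
  intro x
  obtain ⟨⟨a, b, c⟩, rfl⟩ := ((Nat.bijective_iff_injective_and_card ψ).2 ⟨hinj, hcard⟩).2 x
  have h1 : aG φ (1 : K) ∈ Hs := hMH (aG_mem_fixG φ hφ hK (map_one φ))
  refine hadd _ _ (hadd _ _ ?_ (hscal _ _ (fld_spec φ b) h)) (hscal _ _ (fld_spec φ c) hline.2)
  simpa using hscal _ _ (fld_spec φ a) h1

theorem eq_top_of_aG {t : K} (ht : φ t ≠ t) (h : aG φ t ∈ Hs) : Hs = twistedD4 K q := by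
  refine le_antisymm hHG ?_
  have hall := full_aG φ hφ hK hq hMH hHG ht h
  have hu : ∀ x, uG φ x ∈ Hs := fun x => uG_of_aG φ hφ hK hq hMH hHG (hall (-x))
  have hn : nG ∈ Hs := hMH (nG_mem_fixG φ hφ hK)
  refine (Subgroup.closure_le _).2 ?_
  rintro g ⟨w, hw, hg⟩
  have hgw : g = D4.checked.wg w := Units.ext (hg.trans (D4.checked.val_wg w).symm)
  have hgG : g ∈ twistedD4 K q := hgw ▸ D4.mem_twisted φ hφ hw
  obtain ⟨e1, e2, e3, e4, e5, e6, e7, e8⟩ : d4p1 = 18 ∧ d4p2 = 14 ∧ d4p3 = 13 ∧ d4p4 = 12 ∧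
    d4m1 = 5 ∧ d4m2 = 9 ∧ d4m3 = 10 ∧ d4m4 = 11 := by decide +kernel
  have hw1 : ∀ r s, D4.checked.wg [(r, s)] = (X r s : GL chevD4.Idx K) := fun r s => by
    rw [D4.checked.wg_cons, D4.checked.wg_nil, mul_one]
  have hw3 : ∀ r r' r'' (s s' s'' : K), D4.checked.wg [(r, s), (r', s'), (r'', s'')] =
      (X r s * X r' s' * X r'' s'' : GL chevD4.Idx K) := fun r r' r'' s s' s'' => by
    rw [D4.checked.wg_cons, D4.checked.wg_cons, hw1, mul_assoc]
  subst hgw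
  rcases hw with ⟨x, hx, r, hr, rfl⟩ | ⟨x, rs, hrs, rfl⟩
  · refine hMH (mem_fixG.2 ⟨hgG, ?_⟩)
    rw [hw1, gmap_X φ (by simp only [List.mem_cons, List.not_mem_nil, or_false, e2, e6] at hr; omega), hφ, hx]
  · have hxx : x ^ q ^ 2 = φ (φ x) := by rw [hφ (φ x), hφ x, ← pow_mul, pow_two]
    simp only [List.mem_cons, List.not_mem_nil, or_false] at hrs
    rcases hrs with rfl | rfl
    · show D4.checked.wg _ ∈ Hs
      rw [hw3, e1, e3, e4, ← hφ, hxx]
      exact hu x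
    · show D4.checked.wg _ ∈ Hs
      rw [hw3, e5, e7, e8, ← hφ, hxx]
      have := mul_mem (mul_mem hn (hu (-x))) (inv_mem hn)
      simpa [nG_uG] using this

variable (hA : ∀ t, aG φ t ∈ Hs → φ t = t)
include hA

theorem borel_fixed {g : GL chevD4.Idx K} (hg : g ∈ Hs) (hb : g ∈ chevD4.borelSubgroup K) :
    ∃ (v : K) (f : V4 K) (c a b : K), φ v = v ∧ φ f.1 = f.1 ∧ φ f.2.1 = f.2.1 ∧ φ f.2.2.1 = f.2.2.1 ∧
      φ f.2.2.2 = f.2.2.2 ∧ φ c = c ∧ a ≠ 0 ∧ φ a = a ∧ b ≠ 0 ∧ φ b = b ∧ g = bC φ v f c a b := by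
  have h3 := phi3 φ hφ hK
  obtain ⟨v, f, c, a, b, h1, h4, hc, ha, hb0, hb', rfl⟩ := borel_coords φ hφ hK hq hb (hHG hg)
  have hn := nm3_mem φ hφ hK hq a
  have hX : ∀ {r : ℕ}, r ∈ [14, 22, 23] → X r (1 : K) ∈ Hs := fun hr =>
    hMH (xg_mem_fixG φ hφ hK hr (map_one φ))
  set k := (nm3 φ a)⁻¹ * (b * b) with hk
  have hkf : φ k = k := by rw [hk, map_mul, map_mul, map_inv₀, hn, hb']
  have hk0 : k ≠ 0 := mul_ne_zero (inv_ne_zero (nm3_ne φ hφ hK hq ha)) (mul_ne_zero hb0 hb0)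
  have hv : φ v = v := by
    have := hA _ (line_extract φ hφ hK hq hMH hHG hkf (mul_mem (mul_mem hg (hX (r := 14) (by simp)))
      (inv_mem hg)) (bC14 φ h3 v f c ha hb0 hb' hn)).1
    simpa [hkf, hk0] using this
  have hg1 : xV φ f * X 23 c * (hG φ a * H 14 b) ∈ Hs := by
    have := mul_mem (inv_mem (hMH (uG_mem_fixG φ hφ hK hv))) hg
    convert this using 1
    rw [bC]; group
  set l := a * (φ a * φ (φ a))⁻¹ * (b * 1) with hl
  have he : Cong (xV φ f * X 23 c * (hG φ a * H 14 b) * aG φ 1 * (xV φ f * X 23 c * (hG φ a * H 14 b))⁻¹)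
      (xV φ (0, l, 0, 0)) := by
    rw [show ∀ p t x : GL chevD4.Idx K, p * t * x * (p * t)⁻¹ = p * (t * x * t⁻¹) * p⁻¹ from
      fun p t x => by group, tor_aG φ h3 ha hb0 hb', ← hl, xV_single19 φ]
    exact rad_top_conj φ f _ c
  have hin := mul_mem (mul_mem hg1 (hMH (aG_mem_fixG φ hφ hK (map_one φ)))) (inv_mem hg1)
  obtain ⟨d, hd, ed⟩ := cong_fixed φ hφ hK (hHG hin)
    (by rw [← xV_single19]; exact aG_fixed φ hφ hK l) he
  have hlf : φ l = l := hA _ ((Subgroup.mul_mem_cancel_right _ (hMH (xg_mem_fixG φ hφ hK (r := 23) (by simp) hd))).1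
    (by rw [xV_single19 φ, ← ed]; exact hin))
  have haf : φ a = a := by
    have e : a * a = l * nm3 φ a * b⁻¹ := by
      have : φ a ≠ 0 := (map_ne_zero φ).2 ha
      have : φ (φ a) ≠ 0 := (map_ne_zero φ).2 this
      rw [hl, nm3]; field_simp
    have e' : φ a * φ a = a * a := by rw [← map_mul, e, map_mul, map_mul, map_inv₀, hlf, hn, hb']
    rcases mul_self_eq_mul_self_iff.1 e' with h | h
    · exact h
    · have := h3 a
      rw [h, map_neg, h, neg_neg, h] at this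
      rw [h]; exact this
  have hr : xV φ f * X 23 c ∈ Hs := (Subgroup.mul_mem_cancel_right _ (hMH
    (mem_fixG.2 ⟨mul_mem (hG_fixed φ hφ hK ha) (hg_fixed φ hφ hK (by simp) hb0 hb'),
      by rw [map_mul, gmap_hG, haf, gmap_H φ (by norm_num), hb']⟩))).1 hg1
  obtain ⟨e2, e3⟩ := extract φ hφ hK hq hMH hHG h1 h4 hc hr
  exact ⟨v, f, c, a, b, hv, h1, hA _ e2, hA _ e3, h4, hc, ha, haf, hb0, hb', rfl⟩

theorem stab_fixed {g : GL chevD4.Idx K} (hg : g ∈ Hs) (hs : g ∈ topStab q φ) :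
    g ∈ chevD4.borelSubgroup K ∨
      ∃ v : K, φ v = v ∧ ∃ b ∈ Hs, b ∈ chevD4.borelSubgroup K ∧ g = uG φ v * nG * b := by
  rcases topStab_cases φ hφ hK hq hs with h | ⟨v, x, hx, rfl⟩
  · exact Or.inl h
  obtain ⟨hxB, hxG⟩ := Subgroup.mem_inf.1 hx
  obtain ⟨u, f, c, a, d, -, -, -, ha, hd, hdf, hx'⟩ := borel_coords φ hφ hK hq hxB hxG
  set k := nm3 φ a * d⁻¹ with hk
  have hkf : φ k = k := by rw [hk, map_mul, map_inv₀, nm3_mem φ hφ hK hq a, hdf]
  have hk0 : k ≠ 0 := mul_ne_zero (nm3_ne φ hφ hK hq ha) (inv_ne_zero hd)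
  have hin := mul_mem (mul_mem hg (hMH (xg_mem_fixG φ hφ hK (r := 22) (by simp) (map_one φ)))) (inv_mem hg)
  have hl : Cong (uG φ v * nG * x * X 22 1 * (uG φ v * nG * x)⁻¹) (xV φ (lineV φ v k)) := by
    obtain ⟨e, he⟩ := bC22 φ u f c ha hd
    rw [show uG φ v * nG * x * X 22 1 * (uG φ v * nG * x)⁻¹ =
      uG φ v * (nG * (x * X 22 1 * x⁻¹) * nG⁻¹) * (uG φ v)⁻¹ by group, hx', he,
      show ∀ p z : GL chevD4.Idx K, nG * (p * z) * nG⁻¹ = (nG * p * nG⁻¹) * (nG * z * nG⁻¹) from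
      fun p z => by group, nG22, nG_top]
    exact cong_trans (cong_conj_C23 (uG_mem φ v) ⟨e, rfl⟩) (uG_line φ (phi3 φ hφ hK) v hkf)
  have hv : φ v = v := by
    simpa [hkf, hk0] using hA _ (line_extract φ hφ hK hq hMH hHG hkf hin hl).1
  refine Or.inr ⟨v, hv, x, ?_, hxB, rfl⟩
  exact (Subgroup.mul_mem_cancel_left _
    (mul_mem (hMH (uG_mem_fixG φ hφ hK hv)) (hMH (nG_mem_fixG φ hφ hK)))).1 hg

theorem stab_le_fixG {g : GL chevD4.Idx K} (hg : g ∈ Hs) (hs : g ∈ topStab q φ) : g ∈ fixG q φ := by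
  have hb : ∀ {x : GL chevD4.Idx K}, x ∈ Hs → x ∈ chevD4.borelSubgroup K → x ∈ fixG q φ := by
    intro x hx hxB
    obtain ⟨v, f, c, a, b, h0, h1, h2, h3, h4, hc, ha, ha', hb, hb', rfl⟩ :=
      borel_fixed φ hφ hK hq hMH hHG hA hx hxB
    exact bC_mem_fixG φ hφ hK h0 h1 h2 h3 h4 hc ha ha' hb hb'
  rcases stab_fixed φ hφ hK hq hMH hHG hA hg hs with h | ⟨v, hv, x, hx, hxB, rfl⟩
  · exact hb hg h
  · exact mul_mem (mul_mem (uG_mem_fixG φ hφ hK hv) (nG_mem_fixG φ hφ hK)) (hb hx hxB)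

end Over

theorem fixG_hA (t : K) (h : aG φ t ∈ fixG q φ) : φ t = t := by
  have e := (mem_fixG.1 h).2
  rw [gmap_aG, xV_single19 φ, xV_single19 φ] at e
  have := xV_inj φ hφ hK hq (f := (0, φ t, 0, 0)) (g := (0, t, 0, 0))
    ⟨0, by rw [e, D4.checked.xg_zero, mul_one]⟩
  exact congrArg (fun x : V4 K => x.2.1) this

theorem card_fixStab_le :
    Nat.card ↥(fixG q φ ⊓ topStab q φ) ≤ (q + 1) * (q ^ 6 * (q - 1) ^ 2) := by
  classical
  let T := Fld φ × (Fld φ × Fld φ × Fld φ × Fld φ) × Fld φ × (Fld φ)ˣ × (Fld φ)ˣ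
  let bc : T → GL chevD4.Idx K := fun p => bC φ (p.1 : K)
    ((p.2.1.1 : K), (p.2.1.2.1 : K), (p.2.1.2.2.1 : K), (p.2.1.2.2.2 : K)) (p.2.2.1 : K)
    ((p.2.2.2.1 : Fld φ) : K) ((p.2.2.2.2 : Fld φ) : K)
  let f : Option (Fld φ) × T → GL chevD4.Idx K := fun p =>
    (match p.1 with
      | none => 1
      | some v => uG φ (v : K) * nG) * bc p.2
  have hB : ∀ x ∈ fixG q φ, x ∈ chevD4.borelSubgroup K → ∃ p, bc p = x := by
    intro x hx hxB
    obtain ⟨v, g, c, a, b, h0, h1, h2, h3, h4, hc, ha, ha', hb, hb', rfl⟩ :=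
      borel_fixed φ hφ hK hq le_rfl inf_le_left (fixG_hA φ hφ hK hq) hx hxB
    exact ⟨(⟨v, h0⟩, (⟨g.1, h1⟩, ⟨g.2.1, h2⟩, ⟨g.2.2.1, h3⟩, ⟨g.2.2.2, h4⟩), ⟨c, hc⟩,
      Units.mk0 ⟨a, ha'⟩ (fun e => ha (congrArg Subtype.val e)),
      Units.mk0 ⟨b, hb'⟩ (fun e => hb (congrArg Subtype.val e))), rfl⟩
  have hsub : ((fixG q φ ⊓ topStab q φ : Subgroup (GL chevD4.Idx K)) : Set (GL chevD4.Idx K)) ⊆
      Set.range f := by
    intro x hx
    obtain ⟨hx1, hx2⟩ := Subgroup.mem_inf.1 hx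
    rcases stab_fixed φ hφ hK hq le_rfl inf_le_left (fixG_hA φ hφ hK hq) hx1 hx2 with
      h | ⟨v, hv, b, hb, hbB, rfl⟩
    · obtain ⟨p, rfl⟩ := hB x hx1 h
      exact ⟨(none, p), one_mul _⟩
    · obtain ⟨p, rfl⟩ := hB b hb hbB
      exact ⟨(some ⟨v, hv⟩, p), rfl⟩
  have h := (Nat.card_mono (Set.finite_range f) hsub).trans (Finite.card_range_le f)
  have hu : Nat.card (Fld φ)ˣ = q - 1 := by rw [Nat.card_units, card_fld φ hφ hK hq]
  rw [Nat.card_prod, Finite.card_option, card_fld φ hφ hK hq] at h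
  simp only [T, Nat.card_prod, card_fld φ hφ hK hq, hu] at h
  refine le_trans h (le_of_eq ?_)
  ring

theorem some_not_fixed (y : {v : K // φ v ≠ v} × Fld φ) {k : K} (hk : φ k = k) (hk0 : k ≠ 0) :
    Gam φ (lineEl φ (some y) k) ≠ lineEl φ (some y) k := by
  intro h
  have h1 := lineEl_cong φ hφ hK y hk
  obtain ⟨c, hc⟩ := h1
  have h2 : Cong (Gam φ (lineEl φ (some y) k)) (xV φ (φ (lineV φ (y.1 : K) (-k)).1,
      φ (lineV φ (y.1 : K) (-k)).2.1, φ (lineV φ (y.1 : K) (-k)).2.2.1,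
      φ (lineV φ (y.1 : K) (-k)).2.2.2)) :=
    ⟨φ c, by rw [hc, map_mul, gmap_xV, gmap_X φ (by norm_num)]⟩
  rw [h] at h2
  have := congrArg (fun x : V4 K => x.2.1) (xV_inj φ hφ hK hq (cong_trans (cong_symm ⟨c, hc⟩) h2))
  simp only [lineV_eq, map_neg, map_mul, hk, neg_neg, mul_neg, mul_eq_mul_right_iff, hk0, or_false] at this
  exact y.1.2 this.symm

/-- an element carrying one point to another -/
theorem rel_stab {z : GL chevD4.Idx K} (hz : z ∈ fixG q φ)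
    {o o' : Option ({v : K // φ v ≠ v} × Fld φ)}
    (h : ∀ c, φ c = c → ∃ k, φ k = k ∧ z * lineEl φ o' c * z⁻¹ = lineEl φ o k) :
    z ∈ topStab q φ ∧ (z = 1 → o' = o) := by
  obtain ⟨hzG, hzf⟩ := mem_fixG.1 hz
  have hone : ∀ (p : Option ({v : K // φ v ≠ v} × Fld φ)), lineEl φ p 0 = 1 := fun p => by
    simp [lineEl, D4.checked.xg_zero]
  have hne : ∀ (p : Option ({v : K // φ v ≠ v} × Fld φ)) (c : K), lineEl φ p c = 1 → c = 0 := fun p c e => by
    rw [lineEl, mul_inv_eq_one, mul_eq_left] at e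
    exact D4.checked.xg_eq_one (by norm_num [n24]) e
  obtain ⟨k, hk, ek⟩ := h 1 (map_one φ)
  have hk0 : k ≠ 0 := by
    rintro rfl
    rw [hone, mul_inv_eq_one, mul_eq_left] at ek
    exact one_ne_zero (hne o' 1 ek)
  rcases o with _ | y <;> rcases o' with _ | y'
  · refine ⟨mem_topStab φ hφ hK hzG fun c hc => ?_, fun _ => rfl⟩
    obtain ⟨l, hl, el⟩ := h c hc
    exact ⟨l, hl, by simpa [lineEl_none] using el⟩
  · exfalso
    refine some_not_fixed φ hφ hK hq y' (map_one φ) one_ne_zero ?_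
    rw [lineEl_none, mul_inv_eq_iff_eq_mul, ← eq_inv_mul_iff_mul_eq] at ek
    rw [ek, map_mul, map_inv, hzf, map_mul, hzf, gmap_X φ (by norm_num), hk]
  · exfalso
    refine some_not_fixed φ hφ hK hq y hk hk0 ?_
    rw [← ek, lineEl_none]
    simp only [map_mul, map_inv, hzf, gmap_X φ (show 23 < 24 by norm_num), map_one]
  · have hv : ∀ (w : {v : K // φ v ≠ v} × Fld φ), nm3 φ ((w.1 : K) - φ (w.1 : K)) ≠ 0 := fun w =>
      nm3_ne φ hφ hK hq (sub_ne_zero.2 (Ne.symm w.1.2))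
    have hcomm : ∀ (w : {v : K // φ v ≠ v} × Fld φ) (c d : K), φ c = c → φ d = d →
        lineEl φ (some w) c * Gam φ (lineEl φ (some w) d) = Gam φ (lineEl φ (some w) d) *
          lineEl φ (some w) c * X 23 (c * d * nm3 φ ((w.1 : K) - φ (w.1 : K))) := by
      intro w c d hc hd
      obtain ⟨e, he⟩ := lineEl_cong φ hφ hK w hd
      have h2 : Cong (Gam φ (lineEl φ (some w) d)) (xV φ (lineV φ (φ (w.1 : K)) (-d))) := by
        refine ⟨φ e, ?_⟩
        rw [he, map_mul, gmap_xV, gmap_X φ (by norm_num)]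
        simp only [lineV_eq, map_neg, map_mul, hd, nm3]
      rw [cong_comm φ (lineEl_cong φ hφ hK w hc) h2,
        sForm_line φ (phi3 φ hφ hK) (by rw [map_neg, hc]) (by rw [map_neg, hd]), neg_mul_neg]
    refine ⟨mem_topStab φ hφ hK hzG fun d hd => ?_, ?_⟩
    · set N' := nm3 φ ((y'.1 : K) - φ (y'.1 : K)) with hN'
      have hN'f : φ N' = N' := nm3_mem φ hφ hK hq _
      have hl : φ (d * N'⁻¹) = d * N'⁻¹ := by rw [map_mul, map_inv₀, hd, hN'f]
      obtain ⟨k2, hk2, ek2⟩ := h _ hl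
      set N := nm3 φ ((y.1 : K) - φ (y.1 : K)) with hN
      refine ⟨k * k2 * N, by rw [map_mul, map_mul, hk, hk2, nm3_mem φ hφ hK hq], ?_⟩
      have e1 := hcomm y' 1 (d * N'⁻¹) (map_one φ) hl
      rw [one_mul, ← hN', mul_assoc d, inv_mul_cancel₀ (hv y'), mul_one] at e1
      have e2 : z * _ * z⁻¹ = z * _ * z⁻¹ := congrArg (fun x => z * x * z⁻¹) e1
      have cm : ∀ a b, z * (a * b) * z⁻¹ = z * a * z⁻¹ * (z * b * z⁻¹) := fun a b => by group
      have eG : z * Gam φ (lineEl φ (some y') (d * N'⁻¹)) * z⁻¹ = Gam φ (lineEl φ (some y) k2) := by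
        rw [← ek2, map_mul, map_mul, map_inv, hzf]
      rw [cm, cm, cm, ek, eG, hcomm y k k2 hk hk2, ← hN] at e2
      exact (mul_left_cancel e2).symm
    · rintro rfl
      rw [one_mul, inv_one, mul_one] at ek
      have h1 := xV_inj φ hφ hK hq (cong_trans (cong_symm (ek ▸ lineEl_cong φ hφ hK y' (map_one φ)))
        (lineEl_cong φ hφ hK y hk))
      rw [lineV_eq, lineV_eq] at h1
      obtain rfl : 1 = k := neg_inj.1 (congrArg (fun x : V4 K => x.1) h1)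
      have hv' : (y'.1 : K) = y.1 := by
        have := congrArg (fun x : V4 K => x.2.1) h1
        simpa using this
      rw [lineEl_some, lineEl_some, hv', one_mul, one_mul] at ek
      have he := Subtype.ext (D4.checked.xg_inj (by norm_num [n24]) (mul_left_cancel ek))
      exact congrArg some (Prod.ext (Subtype.ext hv') he)

theorem card_points :
    Nat.card (Option ({v : K // φ v ≠ v} × Fld φ)) = (q ^ 3 - q) * q + 1 := by
  classical
  letI : Fintype {t : K // φ t = t} := Fintype.ofFinite _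
  have h : Nat.card {v : K // φ v ≠ v} = q ^ 3 - q := by
    have hF : Fintype.card {t : K // φ t = t} = q := by
      rw [← Nat.card_eq_fintype_card]; exact card_fld φ hφ hK hq
    rw [Nat.card_eq_fintype_card, Fintype.card_subtype_compl, hK, hF]
  rw [Finite.card_option, Nat.card_prod, h, card_fld φ hφ hK hq]

/-- the points of `³D₄(q)` split into the two kinds -/
theorem cover {g : GL chevD4.Idx K} (hg : g ∈ twistedD4 K q) :
    ∃ m ∈ fixG q φ, ∃ o, ∃ x ∈ topStab q φ, g = m * pt φ o * x := by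
  classical
  let Ω := ↥(fixG q φ) × Option ({v : K // φ v ≠ v} × Fld φ) × ↥(topStab q φ)
  let F : Ω → ↥(twistedD4 K q) := fun w => ⟨(w.1 : GL chevD4.Idx K) * pt φ w.2.1 * w.2.2,
    mul_mem (mul_mem (mem_fixG.1 w.1.2).1 (pt_mem φ hφ hK _)) (Subgroup.mem_inf.1 w.2.2.2).1⟩
  suffices hs : Function.Surjective F by
    obtain ⟨⟨m, o, x⟩, h⟩ := hs ⟨g, hg⟩
    exact ⟨m, m.2, o, x, x.2, (congrArg Subtype.val h).symm⟩
  have key : ∀ w w' : Ω, F w = F w' → ((w.1⁻¹ * w'.1 : ↥(fixG q φ)) : GL chevD4.Idx K) ∈ topStab q φ ∧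
      (((w.1⁻¹ * w'.1 : ↥(fixG q φ)) : GL chevD4.Idx K) = 1 → w'.2.1 = w.2.1) := by
    intro w w' e
    refine rel_stab φ hφ hK hq (w.1⁻¹ * w'.1).2 fun c hc => ?_
    have hQ : (w.2.2 : GL chevD4.Idx K) * (w'.2.2 : GL chevD4.Idx K)⁻¹ ∈ topStab q φ :=
      mul_mem w.2.2.2 (inv_mem w'.2.2.2)
    obtain ⟨k, hk, ek⟩ := topStab_conj φ hφ hK hQ hc
    refine ⟨k, hk, ?_⟩
    have e' : (w.1 : GL chevD4.Idx K) * pt φ w.2.1 * w.2.2 = w'.1 * pt φ w'.2.1 * w'.2.2 :=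
      congrArg Subtype.val e
    have e2 : ((w.1⁻¹ * w'.1 : ↥(fixG q φ)) : GL chevD4.Idx K) * pt φ w'.2.1 =
        pt φ w.2.1 * ((w.2.2 : GL chevD4.Idx K) * (w'.2.2 : GL chevD4.Idx K)⁻¹) := by
      push_cast
      calc (w.1 : GL chevD4.Idx K)⁻¹ * w'.1 * pt φ w'.2.1
          = (w.1 : GL chevD4.Idx K)⁻¹ * (w'.1 * pt φ w'.2.1 * w'.2.2) * (w'.2.2 : GL chevD4.Idx K)⁻¹ := by
            group
        _ = _ := by rw [← e']; group
    rw [lineEl, lineEl, ← ek]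
    calc _ = ((w.1⁻¹ * w'.1 : ↥(fixG q φ)) : GL chevD4.Idx K) * pt φ w'.2.1 * X 23 c *
          (((w.1⁻¹ * w'.1 : ↥(fixG q φ)) : GL chevD4.Idx K) * pt φ w'.2.1)⁻¹ := by group
      _ = _ := by rw [e2]; group
  haveI : Nonempty Ω := ⟨(1, none, 1)⟩
  let r : ↥(twistedD4 K q) → Ω := Function.invFun F
  have hr : ∀ w, F (r (F w)) = F w := fun w => Function.invFun_eq ⟨w, rfl⟩
  let Φ : Ω → Set.range F × ↥(fixG q φ ⊓ topStab q φ) := fun w =>
    (⟨F w, w, rfl⟩, ⟨(((r (F w)).1⁻¹ * w.1 : ↥(fixG q φ)) : GL chevD4.Idx K),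
      Subgroup.mem_inf.2 ⟨((r (F w)).1⁻¹ * w.1).2, (key _ _ (hr w)).1⟩⟩)
  have hΦ : Function.Injective Φ := by
    intro w w' e
    have eF : F w = F w' := congrArg (fun p => (p.1 : ↥(twistedD4 K q))) e
    have em : (((r (F w)).1⁻¹ * w.1 : ↥(fixG q φ)) : GL chevD4.Idx K) =
        (((r (F w')).1⁻¹ * w'.1 : ↥(fixG q φ)) : GL chevD4.Idx K) :=
      congrArg (fun p => (p.2 : GL chevD4.Idx K)) e
    rw [eF] at em
    have hm : w.1 = w'.1 := mul_left_cancel (Subtype.ext em)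
    have ho := (key w w' eF).2 (by rw [hm, inv_mul_cancel, OneMemClass.coe_one])
    obtain ⟨m, o, x⟩ := w
    obtain ⟨m', o', x'⟩ := w'
    simp only at hm ho
    subst hm ho
    have := congrArg Subtype.val eF
    simp only [F] at this
    rw [Subtype.ext (mul_left_cancel this)]
  have h1 : Nat.card Ω ≤ Nat.card (Set.range F) * Nat.card ↥(fixG q φ ⊓ topStab q φ) :=
    (Nat.card_le_card_of_injective Φ hΦ).trans_eq (Nat.card_prod _ _)
  have hMQ := card_fixStab_le φ hφ hK hq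
  have hΩ : Nat.card Ω = Nat.card ↥(fixG q φ) * (((q ^ 3 - q) * q + 1) * Nat.card ↥(topStab q φ)) := by
    simp only [Ω, Nat.card_prod, card_points φ hφ hK hq]
  have hG := D4.card_twisted φ hφ hq hK
  have hid : q ^ 6 * (q ^ 2 - 1) * (q ^ 6 - 1) *
      (((q ^ 3 - q) * q + 1) * ((q ^ 3 + 1) * (q ^ 12 * ((q - 1) ^ 2 * (q ^ 2 + q + 1))))) =
      Nat.card ↥(twistedD4 K q) * ((q + 1) * (q ^ 6 * (q - 1) ^ 2)) := by
    rw [hG]
    have h3 : q ≤ q ^ 3 := Nat.le_self_pow (by norm_num) q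
    zify [Nat.one_le_pow 2 q (by omega), Nat.one_le_pow 6 q (by omega), h3, show 1 ≤ q by omega]
    ring
  have hlow := Nat.mul_le_mul (card_fixG_ge φ hφ hK hq)
    (Nat.mul_le_mul_left ((q ^ 3 - q) * q + 1) (card_topStab_ge φ hφ hK hq))
  rw [hid, ← hΩ] at hlow
  have hle := (hlow.trans h1).trans (Nat.mul_le_mul_left _ hMQ)
  have hpos : 0 < (q + 1) * (q ^ 6 * (q - 1) ^ 2) := by
    have : 0 < q - 1 := by omega
    positivity
  have hfin := Nat.le_of_mul_le_mul_right hle hpos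
  intro y
  have hsub := Set.eq_of_subset_of_ncard_le (Set.subset_univ (Set.range F))
    (by rw [Set.ncard_univ, ← Nat.card_coe_set_eq]; exact hfin) Set.finite_univ
  exact (Set.eq_univ_iff_forall.1 hsub) y

theorem fixG_maximal : fixG q φ ≠ twistedD4 K q ∧ ∀ Hs : Subgroup (GL chevD4.Idx K),
    fixG q φ ≤ Hs → Hs ≤ twistedD4 K q → Hs = fixG q φ ∨ Hs = twistedD4 K q := by
  constructor
  · intro h
    obtain ⟨v, hv⟩ : ∃ v : K, φ v ≠ v := by
      by_contra hc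
      push Not at hc
      have hF := card_fld φ hφ hK hq
      rw [show Nat.card (Fld φ) = Nat.card K from Nat.card_congr (Equiv.subtypeUnivEquiv hc),
        Nat.card_eq_fintype_card, hK] at hF
      have : q < q ^ 3 := by nlinarith [Nat.mul_le_mul hq hq]
      omega
    exact hv (fixG_hA φ hφ hK hq v (h ▸ aG_fixed φ hφ hK v))
  intro Hs hMH hHG
  by_cases hA : ∀ t, aG φ t ∈ Hs → φ t = t
  swap
  · push Not at hA
    obtain ⟨t, ht, hne⟩ := hA
    exact Or.inr (eq_top_of_aG φ hφ hK hq hMH hHG hne ht)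
  refine Or.inl (le_antisymm (fun g hg => ?_) hMH)
  obtain ⟨m, hm, o, x, hx, rfl⟩ := cover φ hφ hK hq (hHG hg)
  have hg' : pt φ o * x ∈ Hs := by
    have := mul_mem (inv_mem (hMH hm)) hg
    rwa [← mul_assoc, ← mul_assoc, inv_mul_cancel, one_mul] at this
  rcases o with _ | y
  · rw [pt, one_mul] at hg'
    rw [pt, mul_one]
    exact mul_mem hm (stab_le_fixG φ hφ hK hq hMH hHG hA hg' hx)
  · exfalso
    obtain ⟨k, hk, ek⟩ := topStab_conj φ hφ hK hx (map_one φ)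
    have hk0 : k ≠ 0 := by
      rintro rfl
      rw [D4.checked.xg_zero, mul_inv_eq_one, mul_eq_left] at ek
      exact one_ne_zero (D4.checked.xg_eq_one (by norm_num [n24]) ek)
    have hin := mul_mem (mul_mem hg' (hMH (xg_mem_fixG φ hφ hK (r := 23) (by simp) (map_one φ)))) (inv_mem hg')
    rw [show pt φ (some y) * x * X 23 1 * (pt φ (some y) * x)⁻¹ =
      pt φ (some y) * (x * X 23 1 * x⁻¹) * (pt φ (some y))⁻¹ by group, ek] at hin
    have hkn : φ (-k) = -k := by rw [map_neg, hk]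
    have := hA _ (line_extract φ hφ hK hq hMH hHG hkn hin (lineEl_cong φ hφ hK y hk)).1
    simp [hk, hk0] at this
    exact y.1.2 this

end Fin

end Cfsg.Agent.Lib.MinDegChev
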